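import Cfsg.Agent.Chev.G2Cov.Cover

/-!
Covering by the square of a semisimple class for the field with four elements.
-/

set_option autoImplicit false

universe u

namespace Cfsg.Agent.Chev.G2Cov

open Cfsg.Lie
open Cfsg.Agent.Chev.G2Odd
open scoped Matrix MatrixGroups

variable {F : Type u} [Field F] [Fintype F]

local notation "GL₂" => GL (Fin 2) F
local notation "GG" => GL chevG2.Idx F

/-- The data of a field with four elements. -/
structure F4Data (F : Type u) [Field F] (w : F) : Prop where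
  two : (2 : F) = 0
  sq : w * w = w + 1
  all : ∀ x : F, x = 0 ∨ x = 1 ∨ x = w ∨ x = w + 1

theorem exists_f4Data (h2 : (2 : F) = 0) (h4 : Fintype.card F = 4) : ∃ w : F, F4Data F w := by
  classical
  obtain ⟨w, -, hw⟩ := Finset.exists_mem_notMem_of_card_lt_card (s := ({0, 1} : Finset F)) (t := Finset.univ)
    (by rw [Finset.card_univ, h4, Finset.card_pair zero_ne_one]; norm_num)
  simp only [Finset.mem_insert, Finset.mem_singleton, not_or] at hw
  obtain ⟨h0, h1⟩ := hw
  have hsq : w * w = w + 1 := by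
    have h3 : w ^ 3 = 1 := by
      have := FiniteField.pow_card_sub_one_eq_one w h0
      rwa [h4] at this
    have : (w - 1) * (w * w + w + 1) = 0 := by linear_combination h3
    have := (mul_eq_zero.mp this).resolve_left (sub_ne_zero.mpr h1)
    linear_combination this - (w + 1) * h2
  refine ⟨w, h2, hsq, fun x => ?_⟩
  have hw1 : w + 1 ≠ 0 := fun e => h1 (by linear_combination e - h2)
  have hu : ({0, 1, w, w + 1} : Finset F) = Finset.univ := by
    refine Finset.eq_univ_of_card _ ?_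
    rw [h4, Finset.card_insert_of_notMem (by simp [Ne.symm h0, Ne.symm hw1]),
      Finset.card_insert_of_notMem (by simp [Ne.symm h1, h0]),
      Finset.card_pair (by simp)]
  have := hu ▸ Finset.mem_univ x
  simpa using this

namespace F4Data

variable {w : F} (D : F4Data F w)
include D

theorem w_ne : w ≠ 0 := fun e => by
  have := D.sq
  rw [e] at this
  simp at this

theorem w_ne_one : w ≠ 1 := fun e => by
  have := D.sq
  rw [e] at this
  simp at this

theorem w1_ne : w + 1 ≠ 0 := fun e => D.w_ne_one (by linear_combination e - D.two)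

theorem w1_ne_one : w + 1 ≠ 1 := fun e => D.w_ne (by linear_combination e)

theorem cube {x : F} (hx : x ≠ 0) : x * x * x = 1 := by
  rcases D.all x with h | h | h | h
  · exact absurd h hx
  · rw [h]; ring
  · rw [h]; linear_combination (w + 1) * D.sq + w * D.two
  · rw [h]; linear_combination (w + 4) * D.sq + (2 + 4 * w) * D.two

theorem neg_eq (x : F) : -x = x := by linear_combination (-x) * D.two

/-- The chosen matrix. -/
noncomputable def T0 : GL₂ := gMk 1 1 1 (w + 1) (by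
  rw [one_mul, one_mul, add_sub_cancel_right]; exact D.w_ne)

theorem coe_T0 : (D.T0 : Matrix (Fin 2) (Fin 2) F) = !![1, 1; 1, w + 1] := rfl

theorem T0_inv : (D.T0⁻¹ : GL₂) = gMk w (w + 1) (w + 1) (w + 1) (by
    intro e; exact D.w1_ne (by linear_combination -e)) := inv_eq_of_mul_eq_one_right (by
  apply gl2_ext <;> simp [coe_T0, Matrix.mul_apply, Fin.sum_univ_two] <;>
    first
      | linear_combination (1 : F) * D.sq + (w + 1) * D.two
      | linear_combination (1 : F) * D.sq + (w + 2) * D.two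
      | linear_combination (0 : F) * D.sq + (w + 1) * D.two
      | linear_combination (1 : F) * D.sq + (2 * w + 1) * D.two
      | linear_combination -D.sq - (w + 1) * D.two
      | linear_combination w * D.two)

theorem T0_pow : D.T0 ^ 5 = gD w w D.w_ne D.w_ne := by
  have h2 : D.T0 * D.T0 = gMk 0 w w (w + 1) (by
      intro e; exact D.w1_ne (by linear_combination -e - D.sq)) := by
    apply gl2_ext <;> simp [coe_T0, Matrix.mul_apply, Fin.sum_univ_two] <;>
      first
        | linear_combination (1 : F) * D.two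
        | linear_combination (0 : F) * D.two + (1 : F) * D.two
        | linear_combination (1 : F) * D.sq + (w + 1) * D.two
  have h4 : D.T0 * D.T0 * (D.T0 * D.T0) = gMk (w + 1) 1 1 1 (by
      intro e; exact D.w_ne (by linear_combination e)) := by
    rw [h2]
    apply gl2_ext <;> simp [Matrix.mul_apply, Fin.sum_univ_two] <;>
      first
        | linear_combination (1 : F) * D.sq
        | linear_combination (1 : F) * D.sq + w * D.two
        | linear_combination (2 : F) * D.sq + (2 * w + 1) * D.two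
  rw [show D.T0 ^ 5 = D.T0 * D.T0 * (D.T0 * D.T0) * D.T0 by simp [pow_succ, mul_assoc], h4]
  apply gl2_ext <;> simp [coe_T0, Matrix.mul_apply, Fin.sum_univ_two] <;>
    first
      | linear_combination (1 : F) * D.two
      | linear_combination (w + 1) * D.two
      | linear_combination (1 : F) * D.two + (0 : F) * D.sq

theorem seed : Seed D.T0 := by
  refine ⟨rfl, fun e he hc => ?_⟩
  have hc' : Commute e (Psi (D.T0 ^ 5)) := by rw [map_pow]; exact Commute.pow_right hc _
  rw [D.T0_pow, Psi_gD] at hc'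
  have hm : w * w ≠ 0 := mul_ne_zero D.w_ne D.w_ne
  refine fix_of_regular D.w_ne hm ?_ he hc'
  intro r hr
  have hv : ∀ (m n : ℤ), (m + 2 * n = 1 ∨ m + 2 * n = 2) → w ^ m * (w * w) ^ n ≠ 1 := by
    intro m n hk
    rw [show w * w = w ^ (2 : ℤ) by rw [zpow_two], ← zpow_mul, ← zpow_add₀ D.w_ne]
    rcases hk with hk | hk <;> rw [hk]
    · rw [zpow_one]; exact D.w_ne_one
    · rw [zpow_two, D.sq]; exact D.w1_ne_one
  fin_cases hr <;> exact hv _ _ (by decide +kernel)

/-- Every scalar, and every matrix of nonzero trace, is a product of two allowed factors. -/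
theorem good (A : GL₂) (h : NonScalar A → A.val.trace ≠ 0) : Good D.T0 A := by
  have h2 := D.two
  have hsq := D.sq
  have hTns : NonScalar D.T0 := Or.inl (by simp [coe_T0])
  have hTins : NonScalar (D.T0⁻¹ : GL₂) := by
    rw [D.T0_inv]; exact Or.inl (by simpa using D.w1_ne)
  have tT : D.T0.val.trace = w := by
    simp [coe_T0, Matrix.trace_fin_two]; linear_combination h2
  have dT : D.T0.val.det = w := by simp [coe_T0]
  have tTi : (D.T0⁻¹ : GL₂).val.trace = 1 := by
    rw [D.T0_inv]; simp [Matrix.trace_fin_two]; linear_combination w * h2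
  have dTi : (D.T0⁻¹ : GL₂).val.det = w + 1 := by
    rw [D.T0_inv]; simp
    linear_combination (-1 : F) * h2 + (0 : F) * hsq + (-w) * h2 + (0 : F)
  have irr : ∀ Z : GL₂, (Z.val.trace = w ∧ Z.val.det = w) ∨ (Z.val.trace = 1 ∧ Z.val.det = w + 1) →
      NonScalar Z := by
    intro Z hZ
    by_contra hc
    obtain ⟨h1, h2', h3⟩ := scalar_of_not hc
    rcases hZ with ⟨t, -⟩ | ⟨t, -⟩ <;> rw [Matrix.trace_fin_two, ← h3] at t
    · exact D.w_ne (by linear_combination -t + Z.val 0 0 * h2)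
    · exact one_ne_zero (α := F) (by linear_combination -t + Z.val 0 0 * h2)
  have opt : ∀ Z : GL₂, (Z.val.trace = w ∧ Z.val.det = w) ∨ (Z.val.trace = 1 ∧ Z.val.det = w + 1) →
      Opt D.T0 Z := by
    intro Z hZ
    have hn := irr Z hZ
    rcases hZ with ⟨t, d⟩ | ⟨t, d⟩
    · obtain ⟨Y, hY⟩ := isConj_of_trace_det hTns hn (by rw [tT, t]) (by rw [dT, d])
      exact ⟨Y, Or.inl hY⟩
    · obtain ⟨Y, hY⟩ := isConj_of_trace_det hTins hn (by rw [tTi, t]) (by rw [dTi, d])
      exact ⟨Y, Or.inr hY⟩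
  have hd0 : A.val.det ≠ 0 := by rw [Matrix.det_fin_two]; exact gl2_det_ne A
  have iw : w⁻¹ = w + 1 := inv_eq_of_mul_eq_one_right (by linear_combination hsq + w * h2)
  have iw1 : (w + 1)⁻¹ = w := inv_eq_of_mul_eq_one_right (by linear_combination hsq + w * h2)
  by_cases hns : NonScalar A
  · have hT := h hns
    rcases D.all A.val.det with hD | hD | hD | hD
    · exact absurd hD hd0
    · obtain ⟨x, z, hq⟩ : ∃ x z : F, x * (w - x) - (z * 1 + x * A.val.trace - 1 * w) * z = w := by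
        rcases D.all A.val.trace with e | e | e | e
        · exact absurd e hT
        · exact ⟨w, w + 1, by rw [e]; grind⟩
        · exact ⟨1, 1, by rw [e]; grind⟩
        · exact ⟨1, w, by rw [e]; grind⟩
      obtain ⟨X, Y, rfl, tX, dX, tY, dY⟩ := exists_factor hns (p := w) (n := w) (m := 1) (x := x) (w := z)
        D.w_ne (by rw [hD]; exact hq)
      rw [hD, one_div, iw] at dY
      exact ⟨X, Y, opt X (Or.inl ⟨tX, dX⟩), opt Y (Or.inr ⟨tY, dY⟩), rfl⟩
    · obtain ⟨x, z, hq⟩ : ∃ x z : F, x * (1 - x) - (z * w + x * A.val.trace - 1 * (w + 1)) * z = w + 1 := by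
        rcases D.all A.val.trace with e | e | e | e
        · exact absurd e hT
        · exact ⟨w + 1, 1, by rw [e]; grind⟩
        · exact ⟨1, 1, by rw [e]; grind⟩
        · exact ⟨1, w + 1, by rw [e]; grind⟩
      obtain ⟨X, Y, rfl, tX, dX, tY, dY⟩ := exists_factor hns (p := 1) (n := w + 1) (m := 1) (x := x) (w := z)
        D.w1_ne (by rw [hD]; exact hq)
      rw [hD, div_eq_mul_inv, iw1, hsq] at dY
      exact ⟨X, Y, opt X (Or.inr ⟨tX, dX⟩), opt Y (Or.inr ⟨tY, dY⟩), rfl⟩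
    · obtain ⟨x, z, hq⟩ : ∃ x z : F, x * (w - x) - (z * (w + 1) + x * A.val.trace - w * w) * z = w := by
        rcases D.all A.val.trace with e | e | e | e
        · exact absurd e hT
        · exact ⟨1, 1, by rw [e]; grind⟩
        · exact ⟨w, w, by rw [e]; grind⟩
        · exact ⟨1, w + 1, by rw [e]; grind⟩
      obtain ⟨X, Y, rfl, tX, dX, tY, dY⟩ := exists_factor hns (p := w) (n := w) (m := w) (x := x) (w := z)
        D.w_ne (by rw [hD]; exact hq)
      rw [hD, div_eq_mul_inv, iw, show (w + 1) * (w + 1) = w by linear_combination hsq + (w + 1) * h2] at dY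
      exact ⟨X, Y, opt X (Or.inl ⟨tX, dX⟩), opt Y (Or.inl ⟨tY, dY⟩), rfl⟩
  · obtain ⟨h01, h10, h11⟩ := scalar_of_not hns
    have own : Opt D.T0 D.T0 := ⟨1, Or.inl (by group)⟩
    have owni : Opt D.T0 D.T0⁻¹ := ⟨1, Or.inr (by group)⟩
    have ha : A.val 0 0 ≠ 0 := fun e => hd0 (by rw [Matrix.det_fin_two, h01, e]; ring)
    rcases D.all (A.val 0 0) with e | e | e | e
    · exact absurd e ha
    · refine ⟨D.T0, D.T0⁻¹, own, owni, ?_⟩
      rw [mul_inv_cancel]
      apply gl2_ext <;> simp [h01, h10, ← h11, e]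
    · refine ⟨D.T0, gMk (w + 1) 1 1 1 (by intro e; exact D.w_ne (by linear_combination e)), own,
        opt _ (Or.inl ⟨?_, ?_⟩), ?_⟩
      · simp [Matrix.trace_fin_two]; grind
      · simp
      · apply gl2_ext <;> simp [coe_T0, Matrix.mul_apply, Fin.sum_univ_two, h01, h10, ← h11, e] <;> grind
    · refine ⟨D.T0⁻¹, gMk (w + 1) (w + 1) (w + 1) w (by intro e; exact D.w1_ne (by grind)), owni,
        opt _ (Or.inr ⟨?_, ?_⟩), ?_⟩
      · simp [Matrix.trace_fin_two]; grind
      · simp; grind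
      · rw [D.T0_inv]
        apply gl2_ext <;> simp [Matrix.mul_apply, Fin.sum_univ_two, h01, h10, ← h11, e] <;> grind

end F4Data

/-- The product of the five negative root elements outside `-a`. -/
noncomputable def V (g a c d z : F) : GG :=
  cG.xu 5 g * cG.xu 3 a * cG.xu 2 c * cG.xu 1 d * cG.xu 0 z

omit [Fintype F] in
theorem exists_V {e : GG} (he : e ∈ QN F 0) : ∃ g a c d z : F, e = V g a c d z := by
  obtain ⟨t, ht, e'⟩ := Cert.exists_prodU cG (P := posExcept chevG2 0)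
    (Cert.closedSet_posExcept cG.{u} (by decide +kernel)) (QN_mem_iff.mp he)
  have h7 : t 7 = 0 := by
    by_contra h
    exact (ht 7 h).2 (by decide +kernel)
  have key : e = nInv F * cG.prodU t * (nInv F)⁻¹ := by rw [← e']; group
  have hl : chevG2.posRoots = [6, 7, 8, 9, 10, 11] := by decide +kernel
  have e2 : cG.prodU t = cG.xu 6 (t 6) * cG.xu 8 (t 8) * cG.xu 9 (t 9) * cG.xu 10 (t 10) * cG.xu 11 (t 11) := by
    simp [Cert.prodU, hl, Cert.wu, h7, Cert.xu_zero, mul_assoc]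
  obtain ⟨-, a6, -, e6⟩ := nInv_maps (F := F) 6 (by norm_num)
  obtain ⟨-, a8, -, e8⟩ := nInv_maps (F := F) 8 (by norm_num)
  obtain ⟨-, a9, -, e9⟩ := nInv_maps (F := F) 9 (by norm_num)
  obtain ⟨-, a10, -, e10⟩ := nInv_maps (F := F) 10 (by norm_num)
  obtain ⟨-, a11, -, e11⟩ := nInv_maps (F := F) 11 (by norm_num)
  rw [show chevG2.neg 6 = 5 by decide +kernel] at e6
  rw [show chevG2.neg 8 = 3 by decide +kernel] at e8
  rw [show chevG2.neg 9 = 2 by decide +kernel] at e9
  rw [show chevG2.neg 10 = 1 by decide +kernel] at e10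
  rw [neg11] at e11
  refine ⟨a6 * t 6, a8 * t 8, a9 * t 9, a10 * t 10, a11 * t 11, ?_⟩
  rw [key, e2, V, ← e6, ← e8, ← e9, ← e10, ← e11]
  group

omit [Fintype F] in
/-- Conjugating one root element by another, as an explicit word. -/
theorem conj_word {r s : ℕ} (hr : r < 12) (hs : s < 12) (hne : s ≠ r) (hneg : s ≠ chevG2.neg r)
    {L : List (ℕ × ℤ × ℕ × ℕ)} (hL : chevG2.commTerms r s = L) (t v : F) :
    cG.xu r t * cG.xu s v * (cG.xu r t)⁻¹ =
      cG.xu s v * (L.map fun c => cG.xu c.1 ((c.2.1 : F) * t ^ c.2.2.1 * v ^ c.2.2.2)).prod := by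
  rw [Cert.conj_xu cG hr hs hne hneg, Cert.wu, ChevalleyDatum.commWord, hL, List.map_map]
  simp [Function.comp_def]

omit [Fintype F] in
theorem commute_xu {r s : ℕ} (hr : r < 12) (hs : s < 12) (hne : s ≠ r) (hneg : s ≠ chevG2.neg r)
    (hL : chevG2.commTerms r s = []) (t v : F) : Commute (cG.xu r t) (cG.xu s v) := by
  have := conj_word hr hs hne hneg hL t v
  simp at this
  exact mul_inv_eq_iff_eq_mul.mp this

section Mul

variable (h2 : (2 : F) = 0)
include h2

omit [Fintype F] in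
theorem mul_V_0 (g a c d z b : F) : V g a c d z * cG.xu 0 b = V g a c d (z + b) := by
  rw [V, V, mul_assoc, Cert.xu_add]

omit [Fintype F] in
theorem mul_V_1 (g a c d z b : F) : ∃ z', V g a c d z * cG.xu 1 b = V g a c (d + b) z' := by
  refine ⟨z, ?_⟩
  have h : Commute (cG.xu 0 z) (cG.xu 1 b) :=
    commute_xu (by norm_num) (by norm_num) (by norm_num) (by decide +kernel) (by decide +kernel) z b
  rw [V, V, mul_assoc _ (cG.xu 0 z), h.eq, ← mul_assoc, mul_assoc _ (cG.xu 1 d), Cert.xu_add]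

omit [Fintype F] in
theorem mul_V_2 (g a c d z b : F) : ∃ z', V g a c d z * cG.xu 2 b = V g a (c + b) d z' := by
  refine ⟨z, ?_⟩
  have h : Commute (cG.xu 0 z) (cG.xu 2 b) :=
    commute_xu (by norm_num) (by norm_num) (by norm_num) (by decide +kernel) (by decide +kernel) z b
  have h' : Commute (cG.xu 1 d) (cG.xu 2 b) :=
    commute_xu (by norm_num) (by norm_num) (by norm_num) (by decide +kernel) (by decide +kernel) d b
  rw [V, V, mul_assoc _ (cG.xu 0 z), h.eq, ← mul_assoc, mul_assoc _ (cG.xu 1 d), h'.eq, ← mul_assoc,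
    mul_assoc _ (cG.xu 2 c), Cert.xu_add]

omit [Fintype F] in
theorem mul_V_3 (g a c d z b : F) : ∃ z', V g a c d z * cG.xu 3 b = V g (a + b) c d z' := by
  refine ⟨z + c * b, ?_⟩
  have h : Commute (cG.xu 0 z) (cG.xu 3 b) :=
    commute_xu (by norm_num) (by norm_num) (by norm_num) (by decide +kernel) (by decide +kernel) z b
  have h' : Commute (cG.xu 1 d) (cG.xu 3 b) :=
    commute_xu (by norm_num) (by norm_num) (by norm_num) (by decide +kernel) (by decide +kernel) d b
  have h'' : cG.xu 2 c * cG.xu 3 b = cG.xu 3 b * cG.xu 0 (c * b) * cG.xu 2 c := by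
    have := conj_word (F := F) (L := [(0, 3, 1, 1)]) (r := 2) (s := 3) (by norm_num) (by norm_num)
      (by norm_num) (by decide +kernel) (by decide +kernel) c b
    simp at this
    rw [show (3 : F) * c * b = c * b by linear_combination (c * b) * h2] at this
    exact mul_inv_eq_iff_eq_mul.mp this
  have k1 : ∀ x y : F, Commute (cG.xu 0 x) (cG.xu 1 y) := fun x y =>
    commute_xu (by norm_num) (by norm_num) (by norm_num) (by decide +kernel) (by decide +kernel) x y
  have k2 : ∀ x y : F, Commute (cG.xu 0 x) (cG.xu 2 y) := fun x y =>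
    commute_xu (by norm_num) (by norm_num) (by norm_num) (by decide +kernel) (by decide +kernel) x y
  calc V g a c d z * cG.xu 3 b
      = cG.xu 5 g * cG.xu 3 a * (cG.xu 2 c * cG.xu 3 b) * cG.xu 1 d * cG.xu 0 z := by
        rw [V, mul_assoc _ (cG.xu 0 z), h.eq, ← mul_assoc, mul_assoc _ (cG.xu 1 d), h'.eq]; group
    _ = cG.xu 5 g * (cG.xu 3 a * cG.xu 3 b) * (cG.xu 0 (c * b) * cG.xu 2 c) * cG.xu 1 d * cG.xu 0 z := by
        rw [h'']; group
    _ = V g (a + b) c d (z + c * b) := by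
        rw [V, Cert.xu_add, (k2 (c * b) c).eq, mul_assoc _ (cG.xu 2 c * _) (cG.xu 1 d),
          mul_assoc (cG.xu 2 c), (k1 (c * b) d).eq, add_comm z (c * b), ← Cert.xu_add cG 0 (c * b) z]
        group

omit [Fintype F] in
theorem mul_V_5 (g a c d z b : F) : ∃ z', V g a c d z * cG.xu 5 b = V (g + b) a c d z' := by
  refine ⟨d * b + z, ?_⟩
  have h0 : Commute (cG.xu 0 z) (cG.xu 5 b) :=
    commute_xu (by norm_num) (by norm_num) (by norm_num) (by decide +kernel) (by decide +kernel) z b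
  have h2' : Commute (cG.xu 2 c) (cG.xu 5 b) :=
    commute_xu (by norm_num) (by norm_num) (by norm_num) (by decide +kernel) (by decide +kernel) c b
  have h3 : Commute (cG.xu 3 a) (cG.xu 5 b) :=
    commute_xu (by norm_num) (by norm_num) (by norm_num) (by decide +kernel) (by decide +kernel) a b
  have h1 : cG.xu 1 d * cG.xu 5 b = cG.xu 5 b * cG.xu 0 (d * b) * cG.xu 1 d := by
    have := conj_word (F := F) (L := [(0, 1, 1, 1)]) (r := 1) (s := 5) (by norm_num) (by norm_num)
      (by norm_num) (by decide +kernel) (by decide +kernel) d b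
    simp at this
    exact mul_inv_eq_iff_eq_mul.mp this
  have k : ∀ x y : F, Commute (cG.xu 0 x) (cG.xu 1 y) := fun x y =>
    commute_xu (by norm_num) (by norm_num) (by norm_num) (by decide +kernel) (by decide +kernel) x y
  calc V g a c d z * cG.xu 5 b
      = cG.xu 5 g * cG.xu 3 a * cG.xu 2 c * (cG.xu 1 d * cG.xu 5 b) * cG.xu 0 z := by
        rw [V, mul_assoc _ (cG.xu 0 z), h0.eq]; group
    _ = cG.xu 5 g * cG.xu 3 a * (cG.xu 2 c * cG.xu 5 b) * (cG.xu 0 (d * b) * cG.xu 1 d) * cG.xu 0 z := by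
        rw [h1]; group
    _ = cG.xu 5 g * (cG.xu 3 a * cG.xu 5 b) * cG.xu 2 c * (cG.xu 0 (d * b) * cG.xu 1 d) * cG.xu 0 z := by
        rw [h2'.eq]; group
    _ = cG.xu 5 g * cG.xu 5 b * cG.xu 3 a * cG.xu 2 c * (cG.xu 1 d * cG.xu 0 (d * b)) * cG.xu 0 z := by
        rw [h3.eq, (k (d * b) d).eq]; group
    _ = V (g + b) a c d (d * b + z) := by
        rw [V, Cert.xu_add, ← Cert.xu_add cG 0 (d * b) z]; group

omit [Fintype F] in
/-- Conjugation by the short simple root element. -/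
theorem conj_V (g a c d z r : F) :
    ∃ z', cG.xu 7 r * V g a c d z * (cG.xu 7 r)⁻¹ =
      V (g + r * a + r * r * c + r * r * r * d) (a + r * r * d) (c + r * d) d z' := by
  have e5 : cG.xu 7 r * cG.xu 5 g * (cG.xu 7 r)⁻¹ = cG.xu 5 g := by
    have := conj_word (F := F) (L := []) (r := 7) (s := 5) (by norm_num) (by norm_num) (by norm_num)
      (by decide +kernel) (by decide +kernel) r g
    simpa using this
  have e3 : cG.xu 7 r * cG.xu 3 a * (cG.xu 7 r)⁻¹ = cG.xu 3 a * cG.xu 5 (r * a) := by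
    have := conj_word (F := F) (L := [(5, 3, 1, 1)]) (r := 7) (s := 3) (by norm_num) (by norm_num) (by norm_num)
      (by decide +kernel) (by decide +kernel) r a
    simp at this
    rwa [show (3 : F) * r * a = r * a by linear_combination (r * a) * h2] at this
  have e2 : cG.xu 7 r * cG.xu 2 c * (cG.xu 7 r)⁻¹ =
      cG.xu 2 c * cG.xu 5 (r * r * c) * cG.xu 0 (r * c * c) := by
    have := conj_word (F := F) (L := [(3, 2, 1, 1), (5, 3, 2, 1), (0, -3, 1, 2)]) (r := 7) (s := 2)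
      (by norm_num) (by norm_num) (by norm_num) (by decide +kernel) (by decide +kernel) r c
    simp at this
    rw [show (2 : F) * r * c = 0 by linear_combination (r * c) * h2, Cert.xu_zero, one_mul,
      show (3 : F) * r ^ 2 * c = r * r * c by linear_combination (r * r * c) * h2,
      show -((3 : F) * r * c ^ 2) = r * c * c by linear_combination (-2 * r * c * c) * h2, ← mul_assoc] at this
    exact this
  have e1 : cG.xu 7 r * cG.xu 1 d * (cG.xu 7 r)⁻¹ =
      cG.xu 1 d * cG.xu 2 (r * d) * cG.xu 3 (r * r * d) * cG.xu 5 (r * r * r * d) *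
        cG.xu 0 (r * r * r * d * d) := by
    have := conj_word (F := F) (L := [(2, -1, 1, 1), (3, -1, 2, 1), (5, -1, 3, 1), (0, -1, 3, 2)]) (r := 7) (s := 1)
      (by norm_num) (by norm_num) (by norm_num) (by decide +kernel) (by decide +kernel) r d
    simp at this
    rw [show -(r * d) = r * d by linear_combination (-r * d) * h2,
      show -(r ^ 2 * d) = r * r * d by linear_combination (-r * r * d) * h2,
      show -(r ^ 3 * d) = r * r * r * d by linear_combination (-r * r * r * d) * h2,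
      show -(r ^ 3 * d ^ 2) = r * r * r * d * d by linear_combination (-r * r * r * d * d) * h2] at this
    simpa [mul_assoc] using this
  have e0 : cG.xu 7 r * cG.xu 0 z * (cG.xu 7 r)⁻¹ = cG.xu 0 z := by
    have := conj_word (F := F) (L := []) (r := 7) (s := 0) (by norm_num) (by norm_num) (by norm_num)
      (by decide +kernel) (by decide +kernel) r z
    simpa using this
  have hV : cG.xu 7 r * V g a c d z * (cG.xu 7 r)⁻¹ = V g a 0 0 0 * cG.xu 5 (r * a) * cG.xu 2 c *
      cG.xu 5 (r * r * c) * cG.xu 0 (r * c * c) * cG.xu 1 d * cG.xu 2 (r * d) * cG.xu 3 (r * r * d) *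
      cG.xu 5 (r * r * r * d) * cG.xu 0 (r * r * r * d * d) * cG.xu 0 z := by
    calc cG.xu 7 r * V g a c d z * (cG.xu 7 r)⁻¹ =
        (cG.xu 7 r * cG.xu 5 g * (cG.xu 7 r)⁻¹) * (cG.xu 7 r * cG.xu 3 a * (cG.xu 7 r)⁻¹) *
        (cG.xu 7 r * cG.xu 2 c * (cG.xu 7 r)⁻¹) * (cG.xu 7 r * cG.xu 1 d * (cG.xu 7 r)⁻¹) *
        (cG.xu 7 r * cG.xu 0 z * (cG.xu 7 r)⁻¹) := by rw [V]; group
      _ = _ := by
        rw [e5, e3, e2, e1, e0, V, Cert.xu_zero, Cert.xu_zero, Cert.xu_zero]
        simp only [mul_assoc, one_mul, mul_one]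
  obtain ⟨z1, f1⟩ := mul_V_5 h2 g a 0 0 0 (r * a)
  obtain ⟨z2, f2⟩ := mul_V_2 h2 (g + r * a) a 0 0 z1 c
  obtain ⟨z3, f3⟩ := mul_V_5 h2 (g + r * a) a (0 + c) 0 z2 (r * r * c)
  obtain ⟨z5, f5⟩ := mul_V_1 h2 (g + r * a + r * r * c) a (0 + c) 0 (z3 + r * c * c) d
  obtain ⟨z6, f6⟩ := mul_V_2 h2 (g + r * a + r * r * c) a (0 + c) (0 + d) z5 (r * d)
  obtain ⟨z7, f7⟩ := mul_V_3 h2 (g + r * a + r * r * c) a (0 + c + r * d) (0 + d) z6 (r * r * d)
  obtain ⟨z8, f8⟩ := mul_V_5 h2 (g + r * a + r * r * c) (a + r * r * d) (0 + c + r * d) (0 + d) z7 (r * r * r * d)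
  refine ⟨z8 + r * r * r * d * d + z, ?_⟩
  rw [hV, f1, f2, f3, mul_V_0 h2, f5, f6, f7, f8, mul_V_0 h2, mul_V_0 h2]
  simp only [zero_add]

omit [Fintype F] in
theorem mem_V (g a c d z : F) : V g a c d z ∈ QN F 0 := by
  have h : ∀ r ∈ [5, 3, 2, 1, 0], ∀ t : F, cG.xu r t ∈ QN F 0 := by
    intro r hr t
    have : ∀ r ∈ [5, 3, 2, 1, 0], r < 12 ∧ posExcept chevG2 0 (chevG2.neg r) := by
      unfold posExcept; decide +kernel
    exact xu_mem_QN (this r hr).2 (this r hr).1 t
  exact mul_mem (mul_mem (mul_mem (mul_mem (h 5 (by simp) g) (h 3 (by simp) a)) (h 2 (by simp) c))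
    (h 1 (by simp) d)) (h 0 (by simp) z)

end Mul

namespace F4Data

variable {w : F} (D : F4Data F w)
include D

theorem trace_upper (d β : F) (hd : d ≠ 0) :
    (gMk d β 0 d (by simpa using hd) : GL₂).val.trace = 0 := by
  simp [Matrix.trace_fin_two]; linear_combination d * D.two

/-- The step leaving the unipotent Levi part. -/
theorem cov_step {d β γ α c e z : F} (hd : d ≠ 0) {g : GG} {e₂ : GG} (he2 : e₂ ∈ QP F 0)
    (hg : g = V γ α c e z * Psi (gMk d β 0 d (by simpa using hd)) * e₂) (hne : d * γ + β * α ≠ 0) :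
    Cov (Psi D.T0) g := by
  have h2 := D.two
  obtain ⟨s, hs, hsg⟩ : ∃ s : F, s ≠ 0 ∧ 1 + s * γ ≠ 0 := by
    by_cases hγ : γ = 0
    · exact ⟨1, one_ne_zero, by simp [hγ]⟩
    · by_cases h : γ = 1
      · exact ⟨w, D.w_ne, fun e => D.w_ne_one (by rw [h, mul_one] at e; linear_combination e - h2)⟩
      · exact ⟨1, one_ne_zero, fun e => h (by rw [one_mul] at e; linear_combination e - h2)⟩
  refine Cov.of_conj (y := cG.xu 6 s) (Cert.xu_mem_group cG _ _) ?_
  have hR : V γ α c e z = cG.xu 3 α * (cG.xu 2 c * cG.xu 1 e * cG.xu 0 (z + e * γ)) * cG.xu 5 γ := by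
    obtain h0 := mul_V_0 h2 (0 : F) α c e 0 (z + e * γ)
    have h5 : V (0 : F) α c e (0 + (z + e * γ)) * cG.xu 5 γ = V γ α c e z := by
      have k0 : Commute (cG.xu 0 (z + e * γ)) (cG.xu 5 γ) :=
        commute_xu (by norm_num) (by norm_num) (by norm_num) (by decide +kernel) (by decide +kernel) _ _
      have k1 : cG.xu 1 e * cG.xu 5 γ = cG.xu 5 γ * cG.xu 0 (e * γ) * cG.xu 1 e := by
        have := conj_word (F := F) (L := [(0, 1, 1, 1)]) (r := 1) (s := 5) (by norm_num) (by norm_num)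
          (by norm_num) (by decide +kernel) (by decide +kernel) e γ
        simp at this
        exact mul_inv_eq_iff_eq_mul.mp this
      have k2 : Commute (cG.xu 2 c) (cG.xu 5 γ) :=
        commute_xu (by norm_num) (by norm_num) (by norm_num) (by decide +kernel) (by decide +kernel) _ _
      have k3 : Commute (cG.xu 3 α) (cG.xu 5 γ) :=
        commute_xu (by norm_num) (by norm_num) (by norm_num) (by decide +kernel) (by decide +kernel) _ _
      have k : Commute (cG.xu 0 (e * γ)) (cG.xu 1 e) :=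
        commute_xu (by norm_num) (by norm_num) (by norm_num) (by decide +kernel) (by decide +kernel) _ _
      rw [V, V, Cert.xu_zero, one_mul, zero_add]
      calc cG.xu 3 α * cG.xu 2 c * cG.xu 1 e * cG.xu 0 (z + e * γ) * cG.xu 5 γ
          = cG.xu 3 α * cG.xu 2 c * (cG.xu 1 e * cG.xu 5 γ) * cG.xu 0 (z + e * γ) := by
            rw [mul_assoc _ (cG.xu 0 _), k0.eq]; group
        _ = cG.xu 3 α * (cG.xu 2 c * cG.xu 5 γ) * (cG.xu 0 (e * γ) * cG.xu 1 e) * cG.xu 0 (z + e * γ) := by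
            rw [k1]; group
        _ = (cG.xu 3 α * cG.xu 5 γ) * cG.xu 2 c * (cG.xu 0 (e * γ) * cG.xu 1 e) * cG.xu 0 (z + e * γ) := by
            rw [k2.eq]; group
        _ = cG.xu 5 γ * cG.xu 3 α * cG.xu 2 c * cG.xu 1 e * (cG.xu 0 (e * γ) * cG.xu 0 (z + e * γ)) := by
            rw [k3.eq, k.eq]; group
        _ = _ := by
            rw [Cert.xu_add, show e * γ + (z + e * γ) = z by linear_combination (e * γ) * h2]
    rw [← h5, V, Cert.xu_zero, one_mul, zero_add]; group
  have e3 : cG.xu 6 s * cG.xu 3 α * (cG.xu 6 s)⁻¹ =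
      cG.xu 3 α * cG.xu 4 (s * α) * cG.xu 2 (s * α ^ 2) * cG.xu 0 (s * α ^ 3) := by
    have := conj_word (F := F) (L := [(4, -1, 1, 1), (2, -1, 1, 2), (0, -1, 1, 3), (1, 2, 2, 3)]) (r := 6) (s := 3)
      (by norm_num) (by norm_num) (by norm_num) (by decide +kernel) (by decide +kernel) s α
    simp at this
    rw [D.neg_eq, D.neg_eq, D.neg_eq,
      show (2 : F) * s ^ 2 * α ^ 3 = 0 by linear_combination (s ^ 2 * α ^ 3) * h2, Cert.xu_zero, mul_one] at this
    simpa [mul_assoc] using this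
  have hmem : ∀ r ∈ [5, 3, 2, 1, 0], ∀ t : F, cG.xu r t ∈ QN F 0 := by
    intro r hr t
    have : ∀ r ∈ [5, 3, 2, 1, 0], r < 12 ∧ posExcept chevG2 0 (chevG2.neg r) := by
      unfold posExcept; decide +kernel
    exact xu_mem_QN (this r hr).2 (this r hr).1 t
  set R : GG := cG.xu 6 s * (cG.xu 2 c * cG.xu 1 e * cG.xu 0 (z + e * γ)) * (cG.xu 6 s)⁻¹
  have hRm : R ∈ QN F 0 := by
    have r2 : cG.xu 6 s * cG.xu 2 c * (cG.xu 6 s)⁻¹ = cG.xu 2 c := by
      have := conj_word (F := F) (L := []) (r := 6) (s := 2) (by norm_num) (by norm_num) (by norm_num)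
        (by decide +kernel) (by decide +kernel) s c
      simpa using this
    have r1 : cG.xu 6 s * cG.xu 1 e * (cG.xu 6 s)⁻¹ = cG.xu 1 e := by
      have := conj_word (F := F) (L := []) (r := 6) (s := 1) (by norm_num) (by norm_num) (by norm_num)
        (by decide +kernel) (by decide +kernel) s e
      simpa using this
    obtain ⟨k, r0⟩ : ∃ k, cG.xu 6 s * cG.xu 0 (z + e * γ) * (cG.xu 6 s)⁻¹ = cG.xu 0 (z + e * γ) * cG.xu 1 k := by
      have := conj_word (F := F) (L := [(1, -1, 1, 1)]) (r := 6) (s := 0) (by norm_num) (by norm_num) (by norm_num)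
        (by decide +kernel) (by decide +kernel) s (z + e * γ)
      simp at this
      exact ⟨_, this⟩
    have : R = cG.xu 2 c * cG.xu 1 e * (cG.xu 0 (z + e * γ) * cG.xu 1 k) := by
      rw [← r0, ← r1]
      calc R = (cG.xu 6 s * cG.xu 2 c * (cG.xu 6 s)⁻¹) * (cG.xu 6 s * cG.xu 1 e * (cG.xu 6 s)⁻¹) *
          (cG.xu 6 s * cG.xu 0 (z + e * γ) * (cG.xu 6 s)⁻¹) := by simp only [R]; group
        _ = _ := by rw [r2, r1]
    rw [this]
    exact mul_mem (mul_mem (hmem 2 (by simp) _) (hmem 1 (by simp) _)) (mul_mem (hmem 0 (by simp) _) (hmem 1 (by simp) _))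
  set lam : F := 1 + s * γ
  have hM : (gU s * gL γ : GL₂).val 0 0 ≠ 0 := by
    simpa [Matrix.mul_apply, Fin.sum_univ_two] using hsg
  have hdec := (LB (F := F)).hom_LDU _ hM
  rw [map_mul, LeviData.hom_gU, LeviData.hom_gL, Pb_gD] at hdec
  have hm00 : (gU s * gL γ : GL₂).val 0 0 = lam := by simp [lam, Matrix.mul_apply, Fin.sum_univ_two]
  have hdet : (gU s * gL γ : GL₂).val 0 0 * (gU s * gL γ : GL₂).val 1 1 -
      (gU s * gL γ : GL₂).val 0 1 * (gU s * gL γ : GL₂).val 1 0 = 1 := by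
    simp [Matrix.mul_apply, Fin.sum_univ_two]
  rw [hdet, hm00, mul_div_cancel₀ _ hsg, mul_assoc lam lam, mul_div_cancel₀ _ hsg, mul_one] at hdec
  rw [show (LB (F := F)).r = 6 from rfl, show chevG2.neg 6 = 5 by decide +kernel] at hdec
  set γ' : F := (gU s * gL γ : GL₂).val 1 0 / lam
  set s' : F := (gU s * gL γ : GL₂).val 0 1 / lam
  set N : GL₂ := gMk d β 0 d (by simpa using hd)
  have hx4 : Psi (gL (s * α) : GL₂) = cG.xu 4 (s * α) := by
    rw [Psi, LeviData.hom_gL, show (LA (F := F)).r = 7 from rfl, neg7]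
  have ht : Psi (gD 1 lam one_ne_zero hsg : GL₂) = tor2 1 lam := by rw [Psi_gD, one_mul]
  set E : GG := cG.xu 3 α * (Psi (gL (s * α)) * (cG.xu 2 (s * α ^ 2) * cG.xu 0 (s * α ^ 3) * R * cG.xu 5 γ') *
    (Psi (gL (s * α)))⁻¹)
  have hE : E ∈ QN F 0 := mul_mem (hmem 3 (by simp) _)
    ((Subgroup.mem_normalizer_iff.mp (fundA.hom_norm_QN (gL (s * α))) _).mp
      (mul_mem (mul_mem (mul_mem (hmem 2 (by simp) _) (hmem 0 (by simp) _)) hRm) (hmem 5 (by simp) _)))
  have h6 : ∀ t : F, cG.xu 6 t ∈ QP F 0 := fun t =>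
    Cert.xu_mem_span cG (show posExcept chevG2 0 6 by unfold posExcept; decide +kernel) t
  set E2 : GG := (Psi N)⁻¹ * cG.xu 6 s' * Psi N * e₂ * (cG.xu 6 s)⁻¹
  have hE2 : E2 ∈ QP F 0 := mul_mem (mul_mem
    ((Subgroup.mem_normalizer_iff''.mp (fundA.hom_norm_QP N) _).mp (h6 s')) he2) (inv_mem (h6 s))
  have heq : cG.xu 6 s * g * (cG.xu 6 s)⁻¹ = E * Psi (gL (s * α) * gD 1 lam one_ne_zero hsg * N) * E2 := by
    rw [hg, hR, map_mul, map_mul, ht]
    calc cG.xu 6 s * (cG.xu 3 α * (cG.xu 2 c * cG.xu 1 e * cG.xu 0 (z + e * γ)) * cG.xu 5 γ * Psi N * e₂) *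
          (cG.xu 6 s)⁻¹
        = (cG.xu 6 s * cG.xu 3 α * (cG.xu 6 s)⁻¹) * R * (cG.xu 6 s * cG.xu 5 γ) * Psi N * e₂ * (cG.xu 6 s)⁻¹ := by
          simp only [R]; group
      _ = _ := by
          rw [e3, hdec]
          simp only [E, E2, hx4]
          group
  refine D.seed.cov ⟨E, hE, E2, hE2, heq⟩ (D.good _ fun _ => ?_)
  intro ht0
  apply mul_ne_zero hs hne
  simp [N, Matrix.trace_fin_two, Matrix.mul_apply, Fin.sum_univ_two, lam] at ht0
  linear_combination ht0 - d * h2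

theorem cov_upper_ne {d β : F} (hd : d ≠ 0) {e₁ e₂ : GG} (h1 : e₁ ∈ QN F 0) (h1n : e₁ ≠ 1)
    (he2 : e₂ ∈ QP F 0) : Cov (Psi D.T0) (e₁ * Psi (gMk d β 0 d (by simpa using hd)) * e₂) := by
  have h2 := D.two
  set N : GL₂ := gMk d β 0 d (by simpa using hd)
  have hfix : ∀ r : F, gU r * N * (gU r)⁻¹ = N := by
    intro r
    rw [mul_inv_eq_iff_eq_mul]
    apply gl2_ext <;> simp [N, Matrix.mul_apply, Fin.sum_univ_two] <;> ring
  have main : ∀ γ α c e z : F, ¬ (γ = 0 ∧ α = 0 ∧ c = 0 ∧ e = 0) → ∀ e₂ ∈ QP F 0,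
      Cov (Psi D.T0) (V γ α c e z * Psi N * e₂) := by
    intro γ α c e z hne e₂ he2
    by_cases hall : ∀ r : F, d * (γ + r * α + r * r * c + r * r * r * e) + β * (α + r * r * e) = 0
    · exfalso
      have q0 := hall 0
      have q1 := hall 1
      have qw := hall w
      have qv := hall (w + 1)
      have c3 := D.cube D.w_ne
      have hsq := D.sq
      have he : e = 0 := (mul_eq_zero.mp (show d * e = 0 by grind)).resolve_left hd
      subst he
      have hα : α = 0 := (mul_eq_zero.mp (show d * α = 0 by grind)).resolve_left hd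
      subst hα
      have hc : c = 0 := (mul_eq_zero.mp (show d * c = 0 by grind)).resolve_left hd
      have hγ : γ = 0 := (mul_eq_zero.mp (show d * γ = 0 by grind)).resolve_left hd
      exact hne ⟨hγ, rfl, hc, rfl⟩
    · push_neg at hall
      obtain ⟨r, hr⟩ := hall
      obtain ⟨z', e'⟩ := conj_V h2 γ α c e z r
      have hU : (Psi (gU r) : GG) = cG.xu 7 r := LeviData.hom_gU LA r
      refine Cov.of_conj (y := cG.xu 7 r) (Cert.xu_mem_group cG _ _) (D.cov_step hd
        (c := c + r * e) (e := e) (z := z') (e₂ := cG.xu 7 r * e₂ * (cG.xu 7 r)⁻¹) ?_ ?_ hr)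
      · exact hU ▸ (Subgroup.mem_normalizer_iff.mp (fundA.hom_norm_QP (gU r)) _).mp he2
      · rw [← e']
        conv_rhs => rw [show Psi (gMk d β 0 d (by simpa using hd)) = Psi (gU r * N * (gU r)⁻¹) by rw [hfix r]]
        rw [map_mul, map_mul, map_inv, hU]
        group
  obtain ⟨γ, α, c, e, z, rfl⟩ := exists_V h1
  by_cases hne : γ = 0 ∧ α = 0 ∧ c = 0 ∧ e = 0
  · obtain ⟨rfl, rfl, rfl, rfl⟩ := hne
    have hz : z ≠ 0 := fun hz => h1n (by simp [V, hz, Cert.xu_zero])
    refine Cov.of_conj (y := cG.xu 6 (1 : F)) (Cert.xu_mem_group cG _ _) ?_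
    have r0 := conj_word (F := F) (L := [(1, -1, 1, 1)]) (r := 6) (s := 0) (by norm_num) (by norm_num)
      (by norm_num) (by decide +kernel) (by decide +kernel) 1 z
    simp at r0
    rw [D.neg_eq] at r0
    have hcomm : Commute (cG.xu 0 z) (cG.xu 1 z) :=
      commute_xu (by norm_num) (by norm_num) (by norm_num) (by decide +kernel) (by decide +kernel) _ _
    have h6 : cG.xu 6 (1 : F) ∈ QP F 0 :=
      Cert.xu_mem_span cG (show posExcept chevG2 0 6 by unfold posExcept; decide +kernel) _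
    have key : cG.xu 6 1 * (V 0 0 0 0 z * Psi N * e₂) * (cG.xu 6 1)⁻¹ =
        V 0 0 0 z z * Psi N * (((Psi N)⁻¹ * cG.xu 6 1 * Psi N) * e₂ * (cG.xu 6 1)⁻¹) := by
      simp only [V, Cert.xu_zero, one_mul]
      rw [← hcomm.eq, ← r0]
      group
    rw [key]
    exact main 0 0 0 z z (fun h => hz h.2.2.2) _ (mul_mem (mul_mem
      ((Subgroup.mem_normalizer_iff''.mp (fundA.hom_norm_QP N) _).mp h6) he2) (inv_mem h6))
  · exact main γ α c e z hne e₂ he2

theorem cov_inv {g : GG} (h : Cov (Psi D.T0) g⁻¹) : Cov (Psi D.T0) g := by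
  obtain ⟨u, hu, v, hv, e⟩ := h
  refine ⟨v * nInv F, mul_mem hv nInv_mem, u * nInv F, mul_mem hu nInv_mem, ?_⟩
  rw [← inv_inv g, e]
  have := D.seed.real
  calc (u * Psi D.T0 * u⁻¹ * (v * Psi D.T0 * v⁻¹))⁻¹ = v * (Psi D.T0)⁻¹ * v⁻¹ * (u * (Psi D.T0)⁻¹ * u⁻¹) := by group
    _ = _ := by rw [← this]; group

theorem cov_upper_one {d β : F} (hd : d ≠ 0) {e₂ : GG} (he2 : e₂ ∈ QP F 0) (h2n : e₂ ≠ 1) :
    Cov (Psi D.T0) (Psi (gMk d β 0 d (by simpa using hd)) * e₂) := by
  set N : GL₂ := gMk d β 0 d (by simpa using hd)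
  refine D.cov_inv (Cov.of_conj (y := nInv F) nInv_mem (Cov.of_conj (y := Psi gW) (Psi_mem _) ?_))
  set E : GG := Psi gW * (nInv F * e₂⁻¹ * (nInv F)⁻¹) * (Psi gW)⁻¹
  have hE' : nInv F * e₂⁻¹ * (nInv F)⁻¹ ∈ QN F 0 := by
    rw [QN_mem_iff]
    have : (nInv F)⁻¹ * (nInv F * e₂⁻¹ * (nInv F)⁻¹) * nInv F = e₂⁻¹ := by group
    rw [this]; exact inv_mem he2
  have hE : E ∈ QN F 0 := (Subgroup.mem_normalizer_iff.mp (fundA.hom_norm_QN gW) _).mp hE'
  have hEn : E ≠ 1 := by
    intro h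
    apply h2n
    have : e₂ = (nInv F)⁻¹ * (Psi gW)⁻¹ * E⁻¹ * Psi gW * nInv F := by simp only [E]; group
    rw [this, h]; group
  set M : GL₂ := gW * (gW * (N⁻¹ * gD (detU N⁻¹ : F)⁻¹ (detU N⁻¹ : F)⁻¹ (detU_inv_ne _) (detU_inv_ne _)) * gW⁻¹) * gW⁻¹
  have key : Psi gW * (nInv F * (Psi N * e₂)⁻¹ * (nInv F)⁻¹) * (Psi gW)⁻¹ = E * Psi M * 1 := by
    simp only [M, map_mul, map_inv, mul_one]
    rw [← map_inv Psi, ← map_inv Psi]
    rw [show Psi gW * (Psi N⁻¹ * Psi (gD (detU N⁻¹ : F)⁻¹ (detU N⁻¹ : F)⁻¹ (detU_inv_ne _) (detU_inv_ne _))) *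
      Psi gW⁻¹ = nInv F * Psi N⁻¹ * (nInv F)⁻¹ by rw [nInv_Psi, map_mul, map_mul, map_mul]]
    simp only [E, map_inv]
    group
  rw [key]
  have hW : (gW : GL₂)⁻¹ = gMk 0 (-1) 1 0 (by simp) := inv_eq_of_mul_eq_one_right (by
    apply gl2_ext <;> simp [Matrix.mul_apply, Fin.sum_univ_two])
  have hN : (N⁻¹ : GL₂) = gMk d⁻¹ (-(β / (d * d))) 0 d⁻¹ (by simp [hd]) := inv_eq_of_mul_eq_one_right (by
    apply gl2_ext <;> simp [N, Matrix.mul_apply, Fin.sum_univ_two, hd] <;> field_simp <;> ring)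
  have hdet : (detU N⁻¹ : F) = d⁻¹ * d⁻¹ := by rw [coe_detU, hN]; simp
  have hM : M = gMk d (-β) 0 d (by simpa using hd) := by
    apply gl2_ext <;> simp only [M, hW, Units.val_mul, coe_gD, hN, coe_gMk, coe_gW] <;>
      simp [coe_detU, Matrix.mul_apply, Fin.sum_univ_two] <;> field_simp
  rw [hM]
  exact D.cov_upper_ne hd hE hEn (one_mem _)

theorem cov_upper {d β : F} (hd : d ≠ 0) {e₁ e₂ : GG} (h1 : e₁ ∈ QN F 0) (he2 : e₂ ∈ QP F 0) :
    Cov (Psi D.T0) (e₁ * Psi (gMk d β 0 d (by simpa using hd)) * e₂) := by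
  by_cases h1n : e₁ = 1
  swap
  · exact D.cov_upper_ne hd h1 h1n he2
  subst h1n
  rw [one_mul]
  by_cases h2n : e₂ = 1
  swap
  · exact D.cov_upper_one hd he2 h2n
  subst h2n
  rw [mul_one]
  set N : GL₂ := gMk d β 0 d (by simpa using hd)
  have hND : Psi N = tor2 d (d * d) * cG.xu 7 (β / d) := by
    rw [← Psi_gD d d hd hd, ← show (LA (F := F)).r = 7 from rfl, ← LeviData.hom_gU, ← map_mul]
    congr 1
    apply gl2_ext <;> simp [N, Matrix.mul_apply, Fin.sum_univ_two] <;> field_simp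
  by_cases hd1 : d = 1
  · subst hd1
    refine Cov.of_conj (y := cG.nu (chevG2.simple 1) 1) (Cert.nu_mem_group cG _ _) ?_
    obtain ⟨c, -, ec⟩ := Cert.conj_xu_simple cG (F := F) (i := 1) (by decide +kernel) (r := 7) (by decide +kernel)
    rw [hND, div_one, mul_one, tor2_one, one_mul, ec, show chevG2.reflectRoot 1 7 = 8 by decide +kernel]
    exact D.seed.cov ⟨1, one_mem _, cG.xu 8 (c * β),
      Cert.xu_mem_span cG (show posExcept chevG2 0 8 by unfold posExcept; decide +kernel) _,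
      show cG.xu 8 (c * β) = 1 * Psi 1 * cG.xu 8 (c * β) by rw [map_one, one_mul, one_mul]⟩
      (D.good 1 (fun h => by simp [NonScalar] at h))
  · have h6 : cG.xu 6 (1 : F) ∈ QP F 0 :=
      Cert.xu_mem_span cG (show posExcept chevG2 0 6 by unfold posExcept; decide +kernel) _
    refine Cov.of_conj (y := cG.xu 6 (1 : F)) (Cert.xu_mem_group cG _ _) ?_
    have e : cG.xu 6 1 * Psi N * (cG.xu 6 (1 : F))⁻¹ =
        Psi N * ((Psi N)⁻¹ * cG.xu 6 1 * Psi N * (cG.xu 6 1)⁻¹) := by group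
    rw [e]
    refine D.cov_upper_one hd (mul_mem ((Subgroup.mem_normalizer_iff''.mp (fundA.hom_norm_QP N) _).mp h6)
      (inv_mem h6)) ?_
    intro h
    have hd2 : d * d ≠ 0 := mul_ne_zero hd hd
    set q : F := d * d
    have hc : tor2 d q * cG.xu 6 q * (tor2 d q)⁻¹ = cG.xu 6 1 := by
      rw [tor2_conj hd hd2 (lt_of 6), show pairInt chevG2 7 6 = -3 by decide +kernel,
        show pairInt chevG2 6 6 = 2 by decide +kernel, zpow_neg,
        show (2 : ℤ) = ((2 : ℕ) : ℤ) from rfl, show (3 : ℤ) = ((3 : ℕ) : ℤ) from rfl, zpow_natCast, zpow_natCast,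
        pow_succ, pow_two, pow_two, D.cube hd, inv_one, one_mul,
        show q * q * q = (d * d * d) * (d * d * d) by simp only [q]; ring, D.cube hd, one_mul]
    have h' : (cG.xu 7 (β / d))⁻¹ * cG.xu 6 q * cG.xu 7 (β / d) = cG.xu 6 1 := by
      have h'' := mul_inv_eq_one.mp h
      rw [hND, mul_inv_rev] at h''
      calc _ = (cG.xu 7 (β / d))⁻¹ * ((tor2 d q)⁻¹ * (tor2 d q * cG.xu 6 q * (tor2 d q)⁻¹) *
            tor2 d q) * cG.xu 7 (β / d) := by group
        _ = _ := by rw [hc]; rw [← mul_assoc] at h''; simp only [← mul_assoc]; exact h''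
    rw [Cert.xu_inv] at h'
    have cw := conj_word (F := F) (L := [(8, -1, 1, 1), (9, 1, 2, 1), (10, 1, 3, 1), (11, 1, 3, 2)]) (r := 7) (s := 6)
      (by norm_num) (by norm_num) (by norm_num) (by decide +kernel) (by decide +kernel) (-(β / d)) q
    rw [Cert.xu_inv, neg_neg, h'] at cw
    have hl : chevG2.posRoots = [6, 7, 8, 9, 10, 11] := by decide +kernel
    have := Cert.prodU_inj cG (t := fun r => if r = 6 then (1 : F) else 0)
      (t' := fun r => if r = 6 then q else if r = 8 then ((-1 : ℤ) : F) * (-(β / d)) ^ 1 * q ^ 1 else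
        if r = 9 then ((1 : ℤ) : F) * (-(β / d)) ^ 2 * q ^ 1 else
        if r = 10 then ((1 : ℤ) : F) * (-(β / d)) ^ 3 * q ^ 1 else
        if r = 11 then ((1 : ℤ) : F) * (-(β / d)) ^ 3 * q ^ 2 else 0) (by
      rw [Cert.prodU_single cG (by decide +kernel : chevG2.IsPosRoot 6), cw]
      simp [Cert.prodU, hl, Cert.wu, Cert.xu_zero, mul_assoc]) 6 (by decide +kernel)
    simp at this
    apply hd1
    have hq : d * (d * d) = 1 := by rw [← D.cube hd]; ring
    rw [show d * d = 1 from this.symm, mul_one] at hq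
    exact hq

theorem cover (g : GG) (hg : g ∈ chevG2.group F) : Cov (Psi D.T0) g := by
  obtain ⟨y, hy, v, hv, h, hh, u, hu, e⟩ := exists_conj_cell hg
  obtain ⟨x, y', hx, hy', rfl⟩ := exists_tor2 hh
  rw [tor2_as_Psi hx hy'] at e
  obtain ⟨α, β, hr⟩ := Rep.of_cell fundA hx (div_ne_zero hy' hx) hv hu
  rw [← e] at hr
  refine Cov.of_conj hy ?_
  set A := gL α * gD x (y' / x) hx (div_ne_zero hy' hx) * gU β
  by_cases hg' : NonScalar A → A.val.trace ≠ 0
  · exact D.seed.cov hr (D.good A hg')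
  push_neg at hg'
  obtain ⟨hns, htr⟩ := hg'
  obtain ⟨d, hd, hdd⟩ : ∃ d : F, d ≠ 0 ∧ d * d = A.val.det := by
    have hne : A.val.det ≠ 0 := by rw [Matrix.det_fin_two]; exact gl2_det_ne A
    exact ⟨A.val.det * A.val.det, mul_ne_zero hne hne, by linear_combination A.val.det * D.cube hne⟩
  obtain ⟨Y, hY⟩ := exists_conj_corner A hns d
  set B := Y * A * Y⁻¹ with hB
  have hB11 : B.val 1 1 = d := by
    have := trace_conj Y A
    rw [htr, Matrix.trace_fin_two, hY] at this
    linear_combination this - d * D.two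
  have hB0 : B.val 0 1 * B.val 1 0 = 0 := by
    have := det_conj Y A
    rw [Matrix.det_fin_two, hY, hB11, ← hdd] at this
    linear_combination -this
  obtain ⟨Z, β', hZ⟩ : ∃ (Z : GL₂) (β' : F), Z * B * Z⁻¹ = gMk d β' 0 d (by simpa using hd) := by
    by_cases h10 : B.val 1 0 = 0
    · exact ⟨1, B.val 0 1, by rw [one_mul, inv_one, mul_one]; apply gl2_ext <;> simp [hY, hB11, h10]⟩
    · refine ⟨gW, -(B.val 1 0), ?_⟩
      have h01 := (mul_eq_zero.mp hB0).resolve_right h10
      rw [mul_inv_eq_iff_eq_mul]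
      apply gl2_ext <;> simp [Matrix.mul_apply, Fin.sum_univ_two, hY, hB11, h01]
  have hr' := hr.conj fundA (Z * Y)
  rw [show Z * Y * A * (Z * Y)⁻¹ = Z * B * Z⁻¹ by rw [hB]; group, hZ] at hr'
  refine Cov.of_conj (Psi_mem (Z * Y)) ?_
  obtain ⟨e₁, h1, e₂, h2', e'⟩ := hr'
  rw [e']
  exact D.cov_upper hd h1 h2'

theorem T0_order : D.T0 ^ 15 = 1 := by
  rw [show (15 : ℕ) = 5 * 3 from rfl, pow_mul, D.T0_pow, pow_succ, pow_two]
  apply gl2_ext <;> simp [Matrix.mul_apply, Fin.sum_univ_two] <;> exact D.cube D.w_ne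

end F4Data

end Cfsg.Agent.Chev.G2Cov
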