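import Cfsg.Agent.Chev.G2Cov.Levi

/-!
Conjugates in the big cell with prescribed determinant in a fundamental Levi subgroup.
-/

set_option autoImplicit false

universe u

namespace Cfsg.Agent.Chev.G2Cov

open Cfsg.Lie
open Cfsg.Agent.Chev.G2Odd
open scoped Matrix MatrixGroups

variable {F : Type u} [Field F]

local notation "GL₂" => GL (Fin 2) F
local notation "GG" => GL chevG2.Idx F

/-- The unipotent radical belonging to a fundamental root. -/
def QP (F : Type u) [Field F] (i : ℕ) : Subgroup (GL chevG2.Idx F) := spanGroup chevG2 F (posExcept chevG2 i)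

/-- Its opposite. -/
noncomputable def QN (F : Type u) [Field F] (i : ℕ) : Subgroup (GL chevG2.Idx F) :=
  (QP F i).map (MulAut.conj (nInv F)).toMonoidHom

theorem QN_mem_iff {i : ℕ} {g : GG} : g ∈ QN F i ↔ (nInv F)⁻¹ * g * nInv F ∈ QP F i := by
  rw [QN, Subgroup.mem_map_equiv, MulAut.conj_symm_apply]

theorem QP_le (i : ℕ) : QP F i ≤ chevG2.posUnipotent F :=
  Cert.span_mono cG fun _ h => h.1

theorem xu_conj_nInv {r : ℕ} (hr : r < 12) (t : F) :
    ∃ t', (nInv F)⁻¹ * cG.xu r t * nInv F = cG.xu (chevG2.neg r) t' := by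
  have hr' : chevG2.neg r < 12 := cG.{u}.neg_lt r hr
  obtain ⟨-, c, hc, e⟩ := nInv_maps (F := F) _ hr'
  have := e (c⁻¹ * t)
  rw [cG.{u}.neg_neg r hr, mul_inv_cancel_left₀ hc] at this
  exact ⟨c⁻¹ * t, by rw [← this]; group⟩

theorem QN_le (i : ℕ) : QN F i ≤ chevG2.negUnipotent F := by
  rw [QN, Subgroup.map_le_iff_le_comap]
  refine Cert.span_le cG fun r hr t => ?_
  obtain ⟨-, c, hc, e⟩ := nInv_maps (F := F) r hr.1.1
  show MulAut.conj (nInv F) (cG.xu r t) ∈ chevG2.negUnipotent F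
  rw [MulAut.conj_apply, e]
  exact Cert.xu_mem_neg cG (Cert.negRoot_neg cG.{u} hr.1) _

theorem xu_mem_QN {i r : ℕ} (h : posExcept chevG2 i (chevG2.neg r)) (hr : r < 12) (t : F) :
    cG.xu r t ∈ QN F i := by
  obtain ⟨t', e⟩ := xu_conj_nInv hr t
  rw [QN_mem_iff, e]
  exact Cert.xu_mem_span cG h _

theorem nInv_monomial : nInv F ∈ chevG2.monomialSubgroup F := by
  have h : ∀ r < 12, cG.nu r (1 : F) ∈ chevG2.monomialSubgroup F := fun r hr =>
    Subgroup.mem_sup_right (Subgroup.subset_closure ⟨_, hr, Cert.coe_nu cG _ _⟩)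
  rw [nInv, hS.map_W, hL.map_W]
  exact mul_mem (h 7 (by norm_num)) (h 11 (by norm_num))

theorem nInv_diag {h : GG} (hh : h ∈ chevG2.diagonalSubgroup F) :
    (nInv F)⁻¹ * h * nInv F ∈ chevG2.diagonalSubgroup F :=
  Cert.monomial_conj_diagonal' cG nInv_monomial hh

theorem diag_norm_QP (i : ℕ) : chevG2.diagonalSubgroup F ≤ Subgroup.normalizer (QP F i : Set GG) :=
  Cert.diag_normalises cG _ fun _ h => h.1.1

theorem norm_QN_of {i : ℕ} {x : GG} (h : (nInv F)⁻¹ * x * nInv F ∈ Subgroup.normalizer (QP F i : Set GG)) :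
    x ∈ Subgroup.normalizer (QN F i : Set GG) := by
  rw [Subgroup.mem_normalizer_iff]
  intro z
  rw [QN_mem_iff, QN_mem_iff,
    show (nInv F)⁻¹ * (x * z * x⁻¹) * nInv F = ((nInv F)⁻¹ * x * nInv F) * ((nInv F)⁻¹ * z * nInv F) *
      ((nInv F)⁻¹ * x * nInv F)⁻¹ by group]
  exact Subgroup.mem_normalizer_iff.mp h _

theorem diag_norm_QN (i : ℕ) : chevG2.diagonalSubgroup F ≤ Subgroup.normalizer (QN F i : Set GG) :=
  fun _ hh => norm_QN_of (diag_norm_QP i (nInv_diag hh))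

/-- The data of a fundamental root. -/
structure Fund (L : LeviData F) (i : ℕ) : Prop where
  lt : i < 2
  root : chevG2.simple i = L.r
  tor_diag : ∀ c, L.tor c ∈ chevG2.diagonalSubgroup F

theorem fundA : Fund (LA (F := F)) 0 :=
  ⟨by norm_num, simple0, fun c => Cert.hu_simple_mem_diagonal cG (lt_of 6) c.ne_zero⟩

theorem fundB : Fund (LB (F := F)) 1 :=
  ⟨by norm_num, simple1, fun c => tor2_mem c.ne_zero c.ne_zero⟩

namespace Fund

variable {L : LeviData F} {i : ℕ} (hL : Fund L i)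
include hL

theorem phi_mem (g : Matrix.SpecialLinearGroup (Fin 2) F) :
    L.phi g ∈ chevG2.rootSubgroup F (chevG2.simple i) ⊔ chevG2.rootSubgroup F (chevG2.neg (chevG2.simple i)) := by
  rw [hL.root, ← Cert.sl2Hom_range cG L.phi L.hphi.U L.hphi.L]
  exact ⟨g, rfl⟩

theorem hom_norm_QP (A : GL₂) : L.hom A ∈ Subgroup.normalizer (QP F i : Set GG) := by
  rw [LeviData.hom_apply]
  exact mul_mem (diag_norm_QP i (hL.tor_diag _)) (Cert.rootPair_normalises cG hL.lt (hL.phi_mem _))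

theorem phi_norm_QN : chevG2.rootSubgroup F (chevG2.simple i) ⊔ chevG2.rootSubgroup F (chevG2.neg (chevG2.simple i))
    ≤ Subgroup.normalizer (QN F i : Set GG) := by
  have hs : chevG2.simple i < 12 := cG.{u}.simple_lt i hL.lt
  refine sup_le ?_ ?_ <;> intro x hx <;> obtain ⟨t, rfl⟩ := (Cert.mem_rootSubgroup cG).mp hx <;>
    apply norm_QN_of
  · obtain ⟨t', e⟩ := xu_conj_nInv hs t
    rw [e]
    exact Cert.rootPair_normalises cG hL.lt (Subgroup.mem_sup_right ((Cert.mem_rootSubgroup cG).mpr ⟨t', rfl⟩))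
  · obtain ⟨t', e⟩ := xu_conj_nInv (cG.{u}.neg_lt _ hs) t
    rw [e, cG.{u}.neg_neg _ hs]
    exact Cert.rootPair_normalises cG hL.lt (Subgroup.mem_sup_left ((Cert.mem_rootSubgroup cG).mpr ⟨t', rfl⟩))

theorem hom_norm_QN (A : GL₂) : L.hom A ∈ Subgroup.normalizer (QN F i : Set GG) := by
  rw [LeviData.hom_apply]
  exact mul_mem (diag_norm_QN i (hL.tor_diag _)) (hL.phi_norm_QN (hL.phi_mem _))

theorem hom_mem (A : GL₂) : L.hom A ∈ chevG2.group F :=
  L.hom_mem (fun c => Cert.diagonal_le_group cG (hL.tor_diag c)) A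

theorem exists_pos {u : GG} (hu : u ∈ chevG2.posUnipotent F) :
    ∃ β : F, ∃ e ∈ QP F i, u = cG.xu L.r β * e := by
  obtain ⟨a, ha, t, e⟩ := Cert.exists_except_mul cG hL.lt hu
  refine ⟨t, (cG.xu L.r t)⁻¹ * a * cG.xu L.r t, ?_, by rw [e, hL.root]; group⟩
  have h := hL.hom_norm_QP (gU t)
  rw [L.hom_gU] at h
  exact (Subgroup.mem_normalizer_iff''.mp h a).mp ha

theorem exists_neg {v : GG} (hv : v ∈ chevG2.negUnipotent F) :
    ∃ e ∈ QN F i, ∃ α : F, v = e * cG.xu (chevG2.neg L.r) α := by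
  have hle : chevG2.negUnipotent F ≤ QN F i ⊔ chevG2.rootSubgroup F (chevG2.neg (chevG2.simple i)) := by
    show spanGroup chevG2 F chevG2.IsNegRoot ≤ _
    refine Cert.span_le cG fun r hr t => ?_
    by_cases h : r = chevG2.neg (chevG2.simple i)
    · exact Subgroup.mem_sup_right ((Cert.mem_rootSubgroup cG).mpr ⟨t, by rw [h]⟩)
    · refine Subgroup.mem_sup_left (xu_mem_QN ⟨Cert.posRoot_neg cG.{u} hr, fun e => h ?_⟩ hr.1 t)
      rw [← e, cG.{u}.neg_neg r hr.1]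
  obtain ⟨e, he, x, hx, rfl⟩ :=
    (Cert.mem_sup_of_normalised (le_sup_right.trans hL.phi_norm_QN)).mp (hle hv)
  obtain ⟨α, rfl⟩ := (Cert.mem_rootSubgroup cG).mp hx
  exact ⟨e, he, α, by rw [hL.root]⟩

theorem xu_neg_mem (α : F) : cG.xu (chevG2.neg L.r) α ∈ chevG2.negUnipotent F := by
  rw [← hL.root]
  exact Cert.xu_mem_neg cG (Cert.negRoot_neg cG.{u} (Cert.pos_simple cG.{u} hL.lt)) _

theorem xu_pos_mem (α : F) : cG.xu L.r α ∈ chevG2.posUnipotent F := by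
  rw [← hL.root]
  exact Cert.xu_mem_pos cG (Cert.pos_simple cG.{u} hL.lt) _

theorem hom_gD_diag (a b : F) (ha : a ≠ 0) (hb : b ≠ 0) :
    L.hom (gD a b ha hb) ∈ chevG2.diagonalSubgroup F := by
  rw [L.hom_gD]
  exact mul_mem (hL.tor_diag _) (Cert.hu_simple_mem_diagonal cG L.hphi.lt ha)

end Fund

/-- The big cell. -/
def BigCell (g : GG) : Prop :=
  ∃ v ∈ chevG2.negUnipotent F, ∃ h ∈ chevG2.diagonalSubgroup F, ∃ u ∈ chevG2.posUnipotent F, g = v * h * u

theorem BigCell.mul_borel {g b : GG} (hg : BigCell g) (hb : b ∈ chevG2.borelSubgroup F) : BigCell (g * b) := by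
  obtain ⟨v, hv, h, hh, u, hu, rfl⟩ := hg
  obtain ⟨a, ha, d, hd, rfl⟩ := (Cert.mem_borel cG).mp hb
  exact ⟨v, hv, h * d, mul_mem hh hd, d⁻¹ * (u * a) * d,
    (Subgroup.mem_normalizer_iff''.mp (Cert.posUnipotent_normalised cG hd) _).mp (mul_mem hu ha), by group⟩

theorem exists_cell_monomial {n : GG} (hn : n ∈ chevG2.monomialSubgroup F) :
    ∃ u ∈ chevG2.posUnipotent F, BigCell (u * n) := by
  generalize hk : invCount chevG2 F n = k
  induction k generalizing n with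
  | zero =>
    exact ⟨1, one_mem _, 1, one_mem _, n, Cert.mem_diagonal_of_invCount_zero cG coxG2 hn hk, 1, one_mem _,
      by group⟩
  | succ k ih =>
    have hH : n ∉ chevG2.diagonalSubgroup F := fun h => by
      rw [Cert.invCount_diagonal cG h] at hk; omega
    obtain ⟨i, hi, hinv⟩ := Cert.exists_descent cG coxG2 hn hH
    have hi2 : i < 2 := hi
    set s := cG.nu (chevG2.simple i) (1 : F) with hs
    have hn' : n * s⁻¹ ∈ chevG2.monomialSubgroup F := mul_mem hn (inv_mem (Cert.nu_mem_monomial cG hi))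
    obtain ⟨u, hu, hcell⟩ := ih hn' (by
      have := Cert.invCount_descend cG coxG2 hi (Cert.isRefl_nu_inv cG hi) hn hinv
      rw [← hs] at this
      omega)
    obtain ⟨L, hL⟩ : ∃ L : LeviData F, Fund L i := by
      interval_cases i
      exacts [⟨_, fundA⟩, ⟨_, fundB⟩]
    have hnot : ¬ Inverts chevG2 F (n * s⁻¹) (chevG2.simple i) := fun h =>
      (Cert.inverts_mul_refl_simple cG coxG2 hi (Cert.isRefl_nu_inv cG hi) hn).mp h hinv
    have hpos : ∀ t : F, (n * s⁻¹) * cG.xu (chevG2.simple i) t * (n * s⁻¹)⁻¹ ∈ chevG2.posUnipotent F := by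
      obtain ⟨W, -, hW⟩ := Cert.monomial_conj_xu cG coxG2 hn'
      obtain ⟨c, hc, e⟩ := hW _ (cG.{u}.simple_lt i hi)
      intro t
      have hlt := Cert.act_lt cG.{u} (Cert.fin_word_lt cG.{u} W) (cG.{u}.simple_lt i hi)
      rcases Cert.posRoot_or_negRoot cG.{u} hlt with h | h
      · rw [e]; exact Cert.xu_mem_pos cG h _
      · exfalso
        refine hnot ⟨Cert.pos_simple cG.{u} hi, ?_⟩
        rw [Cert.map_rootSubgroup cG ⟨c, hc, e⟩]
        exact Cert.rootSubgroup_le_neg cG h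
    obtain ⟨v, hv, h, hh, w, hw, e⟩ := hcell
    obtain ⟨β, e2, he2, rfl⟩ := hL.exists_pos hw
    obtain ⟨z, c, hc, e2', he2', eq⟩ : ∃ z c : F, c ≠ 0 ∧ ∃ e' ∈ QP F i,
        cG.xu L.r β * e2 * cG.xu L.r z = cG.xu L.r c * e' := by
      classical
      refine ⟨if β = 0 then 1 else 0, β + if β = 0 then 1 else 0, ?_,
        (cG.xu L.r (if β = 0 then (1 : F) else 0))⁻¹ * e2 * cG.xu L.r (if β = 0 then (1 : F) else 0), ?_, ?_⟩
      · split_ifs with hb <;> simp [hb]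
      · exact (Subgroup.mem_normalizer_iff''.mp
          (by have := hL.hom_norm_QP (gU (if β = 0 then (1 : F) else 0)); rwa [L.hom_gU] at this) e2).mp he2
      · rw [← Cert.xu_add]; group
    refine ⟨u * ((n * s⁻¹) * cG.xu L.r z * (n * s⁻¹)⁻¹), mul_mem hu (hL.root ▸ hpos z), ?_⟩
    have hsW : s = L.hom gW := by
      have e0 : detU (gW : GL₂) = 1 := Units.ext (by simp [coe_detU])
      have e1 : slPart (gW : GL₂) = sl2W := by
        apply Subtype.ext; ext a b; fin_cases a <;> fin_cases b <;> simp [coe_slPart, e0, sl2W]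
      rw [LeviData.hom_apply, e0, map_one, one_mul, e1, L.hphi.map_W, hs, hL.root]
    have hA : (gU c * gW : GL₂).val 0 0 ≠ 0 := by
      simpa [Matrix.mul_apply, Matrix.vecMul, dotProduct, Fin.sum_univ_two] using hc
    have key : u * (n * s⁻¹ * cG.xu L.r z * (n * s⁻¹)⁻¹) * n = v * h * (L.hom (gU c * gW)) * (s⁻¹ * e2' * s) := by
      rw [map_mul, L.hom_gU, ← hsW]
      have : u * (n * s⁻¹ * cG.xu L.r z * (n * s⁻¹)⁻¹) * n = u * (n * s⁻¹) * cG.xu L.r z * s := by group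
      rw [this, e, mul_assoc (v * h), eq]; group
    rw [key]
    refine BigCell.mul_borel ?_ (Cert.pos_le_borel cG (QP_le i
      ((Subgroup.mem_normalizer_iff''.mp (hsW ▸ hL.hom_norm_QP gW) e2').mp he2')))
    rw [L.hom_LDU _ hA]
    set α := (gU c * gW : GL₂).val 1 0 / (gU c * gW : GL₂).val 0 0
    set δ := L.hom (gD ((gU c * gW : GL₂).val 0 0) _ hA _) with hδ
    refine ⟨v * (h * cG.xu (chevG2.neg L.r) α * h⁻¹), mul_mem hv
      ((Subgroup.mem_normalizer_iff.mp (Cert.negUnipotent_normalised cG hh) _).mp (hL.xu_neg_mem _)),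
      h * δ, mul_mem hh (hL.hom_gD_diag _ _ _ _),
      cG.xu L.r ((gU c * gW : GL₂).val 0 1 / (gU c * gW : GL₂).val 0 0), hL.xu_pos_mem _, by group⟩

/-- Every element has a conjugate in the big cell. -/
theorem exists_conj_cell {g : GG} (hg : g ∈ chevG2.group F) :
    ∃ y ∈ chevG2.group F, BigCell (y * g * y⁻¹) := by
  obtain ⟨n, hn, b₁, hb₁, b₂, hb₂, rfl⟩ := Cert.exists_bruhat cG coxG2 hg
  obtain ⟨u, hu, hc⟩ := exists_cell_monomial hn
  refine ⟨u * b₁⁻¹, mul_mem (Cert.borel_le_group cG (Cert.pos_le_borel cG hu))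
    (inv_mem (Cert.borel_le_group cG hb₁)), ?_⟩
  rw [show u * b₁⁻¹ * (b₁ * n * b₂) * (u * b₁⁻¹)⁻¹ = u * n * (b₂ * b₁ * u⁻¹) by group]
  exact hc.mul_borel (mul_mem (mul_mem hb₂ hb₁) (inv_mem (Cert.pos_le_borel cG hu)))

/-- `g` lies in `Q⁻ L(A) Q`. -/
def Rep (L : LeviData F) (i : ℕ) (A : GL₂) (g : GG) : Prop :=
  ∃ e₁ ∈ QN F i, ∃ e₂ ∈ QP F i, g = e₁ * L.hom A * e₂

theorem Rep.conj {L : LeviData F} {i : ℕ} (hL : Fund L i) {A : GL₂} {g : GG} (h : Rep L i A g) (Y : GL₂) :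
    Rep L i (Y * A * Y⁻¹) (L.hom Y * g * (L.hom Y)⁻¹) := by
  obtain ⟨e₁, h1, e₂, h2, rfl⟩ := h
  exact ⟨_, (Subgroup.mem_normalizer_iff.mp (hL.hom_norm_QN Y) e₁).mp h1, _,
    (Subgroup.mem_normalizer_iff.mp (hL.hom_norm_QP Y) e₂).mp h2, by rw [map_mul, map_mul, map_inv]; group⟩

theorem Rep.cell {L : LeviData F} {i : ℕ} (hL : Fund L i) {A : GL₂} {g : GG} (h : Rep L i A g)
    (h0 : A.val 0 0 ≠ 0) :
    ∃ v ∈ chevG2.negUnipotent F, ∃ u ∈ chevG2.posUnipotent F,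
      g = v * L.hom (gD (A.val 0 0) ((A.val 0 0 * A.val 1 1 - A.val 0 1 * A.val 1 0) / A.val 0 0) h0
        (div_ne_zero (gl2_det_ne A) h0)) * u := by
  obtain ⟨e₁, h1, e₂, h2, rfl⟩ := h
  rw [L.hom_LDU A h0]
  exact ⟨e₁ * cG.xu (chevG2.neg L.r) (A.val 1 0 / A.val 0 0), mul_mem (QN_le i h1) (hL.xu_neg_mem _),
    cG.xu L.r (A.val 0 1 / A.val 0 0) * e₂, mul_mem (hL.xu_pos_mem _) (QP_le i h2), by simp only [mul_assoc]⟩

theorem Rep.of_cell {L : LeviData F} {i : ℕ} (hL : Fund L i) {a b : F} (ha : a ≠ 0) (hb : b ≠ 0) {v u : GG}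
    (hv : v ∈ chevG2.negUnipotent F) (hu : u ∈ chevG2.posUnipotent F) :
    ∃ α β : F, Rep L i (gL α * gD a b ha hb * gU β) (v * L.hom (gD a b ha hb) * u) := by
  obtain ⟨e₁, h1, α, rfl⟩ := hL.exists_neg hv
  obtain ⟨β, e₂, h2, rfl⟩ := hL.exists_pos hu
  exact ⟨α, β, e₁, h1, e₂, h2, by rw [map_mul, map_mul, L.hom_gL, L.hom_gU]; group⟩

theorem LDU_det (α β a b : F) (ha : a ≠ 0) (hb : b ≠ 0) :
    (gL α * gD a b ha hb * gU β).val.det = a * b := by
  rw [Units.val_mul, Units.val_mul, Matrix.det_mul, Matrix.det_mul]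
  simp [Matrix.det_fin_two_of]

theorem LDU_scalar {α β a b : F} {ha : a ≠ 0} {hb : b ≠ 0}
    (h : ¬ NonScalar (gL α * gD a b ha hb * gU β)) : α = 0 ∧ β = 0 ∧ a = b := by
  obtain ⟨h1, h2, h3⟩ := scalar_of_not h
  simp [Matrix.mul_apply, Matrix.vecMul, dotProduct, Fin.sum_univ_two] at h1 h2 h3
  have hβ : β = 0 := h1.resolve_left ha
  have hα : α = 0 := h2.resolve_right ha
  exact ⟨hα, hβ, by simpa [hα, hβ] using h3⟩

theorem tor2_as_Psi {x y : F} (hx : x ≠ 0) (hy : y ≠ 0) :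
    tor2 x y = (LA (F := F)).hom (gD x (y / x) hx (div_ne_zero hy hx)) := by
  rw [Psi_gD, mul_div_cancel₀ y hx]

theorem tor2_as_Pb {x y : F} (hx : x ≠ 0) (hy : y ≠ 0) :
    tor2 x y = (LB (F := F)).hom (gD (y / x) (x * x / y) (div_ne_zero hy hx)
      (div_ne_zero (mul_ne_zero hx hx) hy)) := by
  rw [Pb_gD]
  congr 1 <;> field_simp

/-- A conjugate with Levi part of determinant one. -/
theorem exists_det_one (hcube : ∀ c : F, ∃ x : F, x ≠ 0 ∧ x * x * x ≠ c) {g : GG}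
    (hg : g ∈ chevG2.group F) :
    ∃ y ∈ chevG2.group F, ∃ A : GL₂, A.val.det = 1 ∧ Rep LA 0 A (y * g * y⁻¹) := by
  obtain ⟨y₀, hy₀, v, hv, h, hh, u, hu, e⟩ := exists_conj_cell hg
  obtain ⟨x, y, hx, hy, rfl⟩ := exists_tor2 hh
  have goB : ∀ (x y : F) (hx : x ≠ 0) (hy : y ≠ 0) (y₀ : GG), y₀ ∈ chevG2.group F →
      ∀ v ∈ chevG2.negUnipotent F, ∀ u ∈ chevG2.posUnipotent F, y₀ * g * y₀⁻¹ = v * tor2 x y * u →
      ∀ α β : F, NonScalar (gL α * gD (y / x) (x * x / y) (div_ne_zero hy hx)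
        (div_ne_zero (mul_ne_zero hx hx) hy) * gU β) →
      Rep LB 1 (gL α * gD (y / x) (x * x / y) (div_ne_zero hy hx)
        (div_ne_zero (mul_ne_zero hx hx) hy) * gU β) (y₀ * g * y₀⁻¹) →
      ∃ y ∈ chevG2.group F, ∃ A : GL₂, A.val.det = 1 ∧ Rep LA 0 A (y * g * y⁻¹) := by
    intro x y hx hy y₀ hy₀ v hv u hu e α β hns hrep
    obtain ⟨Y, hY⟩ := exists_conj_corner _ hns (1 / x)
    have hd := det_conj Y (gL α * gD (y / x) (x * x / y) (div_ne_zero hy hx)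
        (div_ne_zero (mul_ne_zero hx hx) hy) * gU β)
    rw [LDU_det, Matrix.det_fin_two] at hd
    set B := Y * (gL α * gD (y / x) (x * x / y) (div_ne_zero hy hx)
        (div_ne_zero (mul_ne_zero hx hx) hy) * gU β) * Y⁻¹
    obtain ⟨v', hv', u', hu', e'⟩ := (hrep.conj fundB Y).cell fundB (by rw [hY]; simp [hx])
    rw [Pb_gD] at e'
    have ht : tor2 (B.val 0 0 * ((B.val 0 0 * B.val 1 1 - B.val 0 1 * B.val 1 0) / B.val 0 0))
        (B.val 0 0 * B.val 0 0 * ((B.val 0 0 * B.val 1 1 - B.val 0 1 * B.val 1 0) / B.val 0 0)) = tor2 x 1 := by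
      rw [hd, hY]
      congr 1 <;> field_simp
    rw [ht, tor2_as_Psi hx one_ne_zero] at e'
    obtain ⟨α', β', hr⟩ := Rep.of_cell fundA hx (div_ne_zero one_ne_zero hx) hv' hu'
    rw [← e'] at hr
    refine ⟨(LB (F := F)).hom Y * y₀, mul_mem (fundB.hom_mem Y) hy₀,
      gL α' * gD x (1 / x) hx (div_ne_zero one_ne_zero hx) * gU β', ?_, ?_⟩
    · exact LDU_det α' β' x (1 / x) hx (div_ne_zero one_ne_zero hx) |>.trans (mul_div_cancel₀ 1 hx)
    · convert hr using 1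
      group
  obtain ⟨α, β, hrep⟩ := Rep.of_cell fundB (div_ne_zero hy hx) (div_ne_zero (mul_ne_zero hx hx) hy) hv hu
  rw [← tor2_as_Pb hx hy, ← e] at hrep
  by_cases hns : NonScalar (gL α * gD (y / x) (x * x / y) (div_ne_zero hy hx)
        (div_ne_zero (mul_ne_zero hx hx) hy) * gU β)
  · exact goB x y hx hy y₀ hy₀ v hv u hu e α β hns hrep
  obtain ⟨-, -, hB⟩ := LDU_scalar hns
  obtain ⟨α', β', hrepA⟩ := Rep.of_cell fundA hx (div_ne_zero hy hx) hv hu
  rw [← tor2_as_Psi hx hy, ← e] at hrepA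
  by_cases hnsA : NonScalar (gL α' * gD x (y / x) hx (div_ne_zero hy hx) * gU β')
  · obtain ⟨x', hx', hne⟩ := hcube (y * y)
    obtain ⟨Y, hY⟩ := exists_conj_corner _ hnsA x'
    have hd := det_conj Y (gL α' * gD x (y / x) hx (div_ne_zero hy hx) * gU β')
    rw [LDU_det, mul_div_cancel₀ y hx, Matrix.det_fin_two] at hd
    set B := Y * (gL α' * gD x (y / x) hx (div_ne_zero hy hx) * gU β') * Y⁻¹
    obtain ⟨v', hv', u', hu', e'⟩ := (hrepA.conj fundA Y).cell fundA (by rw [hY]; exact hx')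
    rw [Psi_gD] at e'
    have ht : tor2 (B.val 0 0) (B.val 0 0 * ((B.val 0 0 * B.val 1 1 - B.val 0 1 * B.val 1 0) / B.val 0 0)) =
        tor2 x' y := by
      rw [mul_div_cancel₀ _ (by rw [hY]; exact hx'), hd, hY]
    rw [ht] at e'
    set y₁ := (LA (F := F)).hom Y * y₀
    have e'' : y₁ * g * y₁⁻¹ = v' * tor2 x' y * u' := by rw [← e']; simp only [y₁]; group
    obtain ⟨γ, δ, hrepB⟩ := Rep.of_cell fundB (div_ne_zero hy hx') (div_ne_zero (mul_ne_zero hx' hx') hy) hv' hu'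
    rw [← tor2_as_Pb hx' hy, ← e''] at hrepB
    refine goB x' y hx' hy y₁ (mul_mem (fundA.hom_mem Y) hy₀) v' hv' u' hu' e'' γ δ ?_ hrepB
    by_contra hc
    obtain ⟨-, -, hB'⟩ := LDU_scalar hc
    apply hne
    field_simp at hB'
    linear_combination -hB'
  · obtain ⟨-, -, hA⟩ := LDU_scalar hnsA
    field_simp at hA hB
    have hx1 : x = 1 := by
      have h1 : y * y = x * x * x := by linear_combination hB
      have : (x * x * x) * (x - 1) = 0 := by linear_combination h1 + (x * x + y) * hA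
      exact sub_eq_zero.mp ((mul_eq_zero.mp this).resolve_left (mul_ne_zero (mul_ne_zero hx hx) hx))
    refine ⟨y₀, hy₀, gL α' * gD x (y / x) hx (div_ne_zero hy hx) * gU β', ?_, hrepA⟩
    rw [LDU_det, mul_div_cancel₀ y hx]
    subst hx1
    linear_combination -hA

end Cfsg.Agent.Chev.G2Cov
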