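import Cfsg.Agent.Chev.G2Cov.Cell

/-!
Covering by the square of a semisimple class: odd `q`, and even `q ≥ 8`.
-/

set_option autoImplicit false

universe u

namespace Cfsg.Agent.Chev.G2Cov

open Cfsg.Lie
open Cfsg.Agent.Chev.G2Odd
open scoped Matrix MatrixGroups

variable {F : Type u} [Field F]

local notation "GL₂" => GL (Fin 2) F
local notation "GG" => GL chevG2.Idx F

theorem QP_le_group (i : ℕ) : QP F i ≤ chevG2.group F := Cert.span_le_group cG _

theorem QN_le_group (i : ℕ) : QN F i ≤ chevG2.group F := by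
  intro x hx
  have h := QP_le_group i (QN_mem_iff.mp hx)
  have := mul_mem (mul_mem nInv_mem h) (inv_mem (nInv_mem (F := F)))
  simpa [mul_assoc] using this

/-- `g` is a product of two conjugates of `x`. -/
def Cov (x g : GG) : Prop :=
  ∃ u ∈ chevG2.group F, ∃ v ∈ chevG2.group F, g = (u * x * u⁻¹) * (v * x * v⁻¹)

theorem Cov.of_conj {x g : GG} {y : GG} (hy : y ∈ chevG2.group F) (h : Cov x (y * g * y⁻¹)) : Cov x g := by
  obtain ⟨u, hu, v, hv, e⟩ := h
  refine ⟨y⁻¹ * u, mul_mem (inv_mem hy) hu, y⁻¹ * v, mul_mem (inv_mem hy) hv, ?_⟩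
  calc g = y⁻¹ * (y * g * y⁻¹) * y := by group
    _ = _ := by rw [e]; group

/-- Twisted conjugation by a fixed-point-free element is onto a finite subgroup it normalises. -/
theorem exists_twist {G : Type*} [Group G] [Finite G] (Q : Subgroup G) (T : G)
    (hT : T ∈ Subgroup.normalizer (Q : Set G)) (hfix : ∀ e ∈ Q, e * T = T * e → e = 1) :
    (∀ v ∈ Q, ∃ w ∈ Q, v * T = w * T * w⁻¹) ∧ ∀ v ∈ Q, ∃ w ∈ Q, T * v = w * T * w⁻¹ := by
  have inj : ∀ w w' : Q, (w : G) * T * (w : G)⁻¹ = w' * T * (w' : G)⁻¹ → w = w' := by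
    intro w w' e
    have h1 : ((w' : G)⁻¹ * w) * T = T * ((w' : G)⁻¹ * w) := by
      calc ((w' : G)⁻¹ * w) * T = (w' : G)⁻¹ * ((w : G) * T * (w : G)⁻¹) * w := by group
        _ = _ := by rw [e]; group
    have := hfix _ (mul_mem (inv_mem w'.2) w.2) h1
    exact Subtype.ext (inv_mul_eq_one.mp this).symm
  constructor
  · let f : Q → Q := fun w => ⟨(w : G) * (T * (w : G)⁻¹ * T⁻¹),
      mul_mem w.2 ((Subgroup.mem_normalizer_iff.mp hT _).mp (inv_mem w.2))⟩
    have hf : Function.Injective f := fun w w' e => inj w w' (by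
      have := congrArg (fun z : Q => (z : G) * T) e
      simpa [f, mul_assoc] using this)
    intro v hv
    obtain ⟨w, hw⟩ := (Finite.injective_iff_surjective.mp hf) ⟨v, hv⟩
    refine ⟨w, w.2, ?_⟩
    rw [← show (f w : G) = v from congrArg Subtype.val hw]
    show (w : G) * (T * (w : G)⁻¹ * T⁻¹) * T = _
    group
  · let f : Q → Q := fun w => ⟨T⁻¹ * (w : G) * T * (w : G)⁻¹,
      mul_mem ((Subgroup.mem_normalizer_iff''.mp hT _).mp w.2) (inv_mem w.2)⟩
    have hf : Function.Injective f := fun w w' e => inj w w' (by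
      have := congrArg (fun z : Q => T * (z : G)) e
      simpa [f, mul_assoc] using this)
    intro v hv
    obtain ⟨w, hw⟩ := (Finite.injective_iff_surjective.mp hf) ⟨v, hv⟩
    refine ⟨w, w.2, ?_⟩
    rw [← show (f w : G) = v from congrArg Subtype.val hw]
    show T * (T⁻¹ * (w : G) * T * (w : G)⁻¹) = _
    group

/-- A symmetric matrix whose image has no fixed points on the positive radical. -/
structure Seed (T : GL₂) : Prop where
  symm : T.val 0 1 = T.val 1 0
  fix : ∀ e ∈ QP F 0, e * Psi T = Psi T * e → e = 1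

/-- A conjugate of `T` or of its inverse. -/
def Opt (T B : GL₂) : Prop := ∃ Y : GL₂, B = Y * T * Y⁻¹ ∨ B = Y * T⁻¹ * Y⁻¹

/-- A product of two allowed factors. -/
def Good (T A : GL₂) : Prop := ∃ B C : GL₂, Opt T B ∧ Opt T C ∧ A = B * C

theorem Opt.conj {T B : GL₂} (h : Opt T B) (Y : GL₂) : Opt T (Y * B * Y⁻¹) := by
  obtain ⟨Z, rfl | rfl⟩ := h
  · exact ⟨Y * Z, Or.inl (by group)⟩
  · exact ⟨Y * Z, Or.inr (by group)⟩

theorem Good.of_conj {T A : GL₂} {Y : GL₂} (h : Good T (Y * A * Y⁻¹)) : Good T A := by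
  obtain ⟨B, C, hB, hC, e⟩ := h
  refine ⟨_, _, hB.conj Y⁻¹, hC.conj Y⁻¹, ?_⟩
  calc A = Y⁻¹ * (Y * A * Y⁻¹) * Y := by group
    _ = _ := by rw [e]; group

namespace Seed

variable {T : GL (Fin 2) F} (hT : Seed T)
include hT

theorem real : nInv F * Psi T * (nInv F)⁻¹ = (Psi T)⁻¹ := by
  rw [nInv_Psi, ← map_inv]
  congr 1
  have hd : (detU T : F) ≠ 0 := Units.ne_zero _
  have e := coe_detU T
  refine eq_inv_of_mul_eq_one_left ?_
  have hW : (gW : GL₂)⁻¹ = gMk 0 (-1) 1 0 (by simp) := inv_eq_of_mul_eq_one_right (by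
    apply gl2_ext <;> simp [Matrix.mul_apply, Fin.sum_univ_two])
  rw [hW]
  rw [hT.symm] at e
  apply gl2_ext <;> simp [Matrix.mul_apply, Matrix.vecMul, dotProduct, Fin.sum_univ_two, hT.symm] <;>
    field_simp <;> first | ring1 | linear_combination -e | linear_combination e

theorem fixN : ∀ e ∈ QN F 0, e * Psi T = Psi T * e → e = 1 := by
  intro e he hc
  have h1 := QN_mem_iff.mp he
  have hr := hT.real
  have hr' : nInv F * (Psi T)⁻¹ * (nInv F)⁻¹ = Psi T := by
    rw [show nInv F * (Psi T)⁻¹ * (nInv F)⁻¹ = (nInv F * Psi T * (nInv F)⁻¹)⁻¹ by group, hr, inv_inv]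
  have h2 : (nInv F)⁻¹ * e * nInv F * (Psi T)⁻¹ = (Psi T)⁻¹ * ((nInv F)⁻¹ * e * nInv F) := by
    rw [← hr'] at hc
    calc (nInv F)⁻¹ * e * nInv F * (Psi T)⁻¹ =
        (nInv F)⁻¹ * (e * (nInv F * (Psi T)⁻¹ * (nInv F)⁻¹)) * nInv F := by group
      _ = _ := by rw [hc]; group
  have h3 : Commute ((nInv F)⁻¹ * e * nInv F) ((Psi T)⁻¹)⁻¹ := Commute.inv_right h2
  rw [inv_inv] at h3
  have := hT.fix _ h1 h3
  calc e = nInv F * ((nInv F)⁻¹ * e * nInv F) * (nInv F)⁻¹ := by group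
    _ = 1 := by rw [this]; group

theorem opt_class {B : GL₂} (hB : Opt T B) :
    ∃ u ∈ chevG2.group F, Psi B = u * Psi T * u⁻¹ := by
  obtain ⟨Y, rfl | rfl⟩ := hB
  · exact ⟨Psi Y, Psi_mem Y, by rw [map_mul, map_mul, map_inv]⟩
  · refine ⟨Psi Y * nInv F, mul_mem (Psi_mem Y) nInv_mem, ?_⟩
    rw [map_mul, map_mul, map_inv, map_inv, ← hT.real]
    group

theorem opt_fix {B : GL₂} (hB : Opt T B) :
    (∀ e ∈ QP F 0, e * Psi B = Psi B * e → e = 1) ∧ ∀ e ∈ QN F 0, e * Psi B = Psi B * e → e = 1 := by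
  obtain ⟨Y, hY⟩ := hB
  have key : ∀ Q : Subgroup GG, (∀ Z : GL₂, Psi Z ∈ Subgroup.normalizer (Q : Set GG)) →
      (∀ e ∈ Q, e * Psi T = Psi T * e → e = 1) → ∀ e ∈ Q, e * Psi B = Psi B * e → e = 1 := by
    intro Q hn hfix e he hc
    have h1 : (Psi Y)⁻¹ * e * Psi Y ∈ Q := (Subgroup.mem_normalizer_iff''.mp (hn Y) e).mp he
    have h2 : Commute e (Psi B) := hc
    have h3 : Commute ((Psi Y)⁻¹ * e * Psi Y) ((Psi Y)⁻¹ * Psi B * Psi Y) := by
      show _ * _ = _ * _
      calc (Psi Y)⁻¹ * e * Psi Y * ((Psi Y)⁻¹ * Psi B * Psi Y) = (Psi Y)⁻¹ * (e * Psi B) * Psi Y := by group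
        _ = _ := by rw [h2.eq]; group
    have h4 : Commute ((Psi Y)⁻¹ * e * Psi Y) (Psi T) := by
      rcases hY with rfl | rfl
      · rwa [map_mul, map_mul, map_inv, show (Psi Y)⁻¹ * (Psi Y * Psi T * (Psi Y)⁻¹) * Psi Y = Psi T by group] at h3
      · rw [map_mul, map_mul, map_inv, map_inv,
          show (Psi Y)⁻¹ * (Psi Y * (Psi T)⁻¹ * (Psi Y)⁻¹) * Psi Y = (Psi T)⁻¹ by group] at h3
        simpa using h3.inv_right
    have h5 := hfix _ h1 h4
    calc e = Psi Y * ((Psi Y)⁻¹ * e * Psi Y) * (Psi Y)⁻¹ := by group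
      _ = 1 := by rw [h5]; group
  exact ⟨key _ (fundA.hom_norm_QP) hT.fix, key _ (fundA.hom_norm_QN) hT.fixN⟩

theorem cov [Fintype F] {A : GL₂} {g : GG} (hr : Rep LA 0 A g) (hg : Good T A) : Cov (Psi T) g := by
  classical
  obtain ⟨e₁, h1, e₂, h2, rfl⟩ := hr
  obtain ⟨B, C, hB, hC, rfl⟩ := hg
  obtain ⟨w, hw, ew⟩ := (exists_twist _ _ (fundA.hom_norm_QN B) (hT.opt_fix hB).2).1 e₁ h1
  obtain ⟨z, hz, ez⟩ := (exists_twist _ _ (fundA.hom_norm_QP C) (hT.opt_fix hC).1).2 e₂ h2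
  obtain ⟨u, hu, eu⟩ := hT.opt_class hB
  obtain ⟨v, hv, ev⟩ := hT.opt_class hC
  have hwG : w ∈ chevG2.group F :=
    (QN_le_group 0) hw
  have hzG : z ∈ chevG2.group F := (QP_le_group 0) hz
  refine ⟨w * u, mul_mem hwG hu, z * v, mul_mem hzG hv, ?_⟩
  rw [map_mul]
  calc e₁ * (Psi B * Psi C) * e₂ = (e₁ * Psi B) * (Psi C * e₂) := by group
    _ = _ := by rw [ew, ez, eu, ev]; group

end Seed

theorem tor2_one : tor2 (1 : F) 1 = 1 := by rw [tor2, Cert.hu_one, Cert.hu_one, one_mul]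

/-- A torus element commuting with an element of the radical kills its coordinates. -/
theorem coords_fixed {x y : F} (hx : x ≠ 0) (hy : y ≠ 0) {e : GG} (he : e ∈ QP F 0)
    (hc : e * tor2 x y = tor2 x y * e) :
    ∃ t : ℕ → F, (∀ r, t r ≠ 0 → posExcept chevG2 0 r ∧
      x ^ pairInt chevG2 7 r * y ^ pairInt chevG2 6 r = 1) ∧ e = cG.prodU t := by
  obtain ⟨t, ht, rfl⟩ := Cert.exists_prodU cG (P := posExcept chevG2 0)
    (Cert.closedSet_posExcept cG.{u} (by decide +kernel)) he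
  refine ⟨t, fun r hr => ⟨ht r hr, ?_⟩, rfl⟩
  set χ : ℕ → F := fun r => x ^ pairInt chevG2 7 r * y ^ pairInt chevG2 6 r
  have hwu : ∀ L : List (ℕ × F), (∀ p ∈ L, p.1 < 12) →
      tor2 x y * cG.wu L * (tor2 x y)⁻¹ = cG.wu (L.map fun p => (p.1, χ p.1 * p.2)) := by
    intro L
    induction L with
    | nil => intro _; simp [Cert.wu]
    | cons p L ih =>
      intro hL
      rw [List.map_cons, Cert.wu_cons, Cert.wu_cons, ← ih fun q hq => hL q (List.mem_cons_of_mem _ hq),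
        ← tor2_conj hx hy (hL p List.mem_cons_self)]
      group
  have e1 : cG.prodU (fun r => χ r * t r) = cG.prodU t := by
    have := hwu (chevG2.posRoots.map fun r => (r, t r)) (by
      intro p hp
      obtain ⟨s, hs, rfl⟩ := List.mem_map.mp hp
      exact ((Cert.mem_posRoots).mp hs).1)
    rw [List.map_map] at this
    rw [Cert.prodU, Cert.prodU]
    refine this.symm.trans ?_
    show tor2 x y * cG.prodU t * (tor2 x y)⁻¹ = cG.prodU t
    rw [← hc, mul_inv_cancel_right]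
  have := Cert.prodU_inj cG e1 r (ht r hr).1
  exact mul_right_cancel₀ hr (by rw [one_mul]; exact this)

theorem fix_of_regular {x y : F} (hx : x ≠ 0) (hy : y ≠ 0)
    (h : ∀ r ∈ [6, 8, 9, 10, 11], x ^ pairInt chevG2 7 r * y ^ pairInt chevG2 6 r ≠ 1) {e : GG}
    (he : e ∈ QP F 0) (hc : e * tor2 x y = tor2 x y * e) : e = 1 := by
  obtain ⟨t, ht, rfl⟩ := coords_fixed hx hy he hc
  rw [show t = fun _ => (0 : F) from funext fun r => by
    by_contra hr
    obtain ⟨hp, h1⟩ := ht r hr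
    have : ∀ r < 12, posExcept chevG2 0 r → r ∈ [6, 8, 9, 10, 11] := by
      unfold posExcept; decide +kernel
    exact h r (this r hp.1.1 hp) h1, Cert.prodU_zero]

theorem Psi_conj_x11 (A : GL₂) (t : F) :
    Psi A * cG.xu 11 t * (Psi A)⁻¹ = cG.xu 11 ((detU A : F) * t) := by
  show cG.hu 6 (detU A : F) * phiS (slPart A) * _ * (cG.hu 6 (detU A : F) * phiS (slPart A))⁻¹ = _
  rw [← hL.U, mul_inv_rev, mul_assoc (cG.hu 6 _), (commute_SL (slPart A) (sl2U t)).eq]
  rw [← mul_assoc, ← mul_assoc, mul_assoc _ (phiS (slPart A)) (phiS (slPart A))⁻¹, mul_inv_cancel, mul_one]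
  rw [hL.U, hu_conj cG (lt_of 6) (lt_of 11) (Units.ne_zero _),
    show pairInt chevG2 6 11 = 1 by decide +kernel, zpow_one]

theorem exists_cube_ne (h : (-1 : F) ≠ 1 ∨ ∃ g : F, g ≠ 0 ∧ g * g * g ≠ 1) (c : F) :
    ∃ x : F, x ≠ 0 ∧ x * x * x ≠ c := by
  by_cases hc : c = 1
  · subst hc
    rcases h with h | ⟨g, hg, h⟩
    · exact ⟨-1, neg_ne_zero.mpr one_ne_zero, by simpa using h⟩
    · exact ⟨g, hg, h⟩
  · exact ⟨1, one_ne_zero, by simpa [eq_comm] using hc⟩

variable [Fintype F]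

set_option maxHeartbeats 1600000 in
/-- Odd characteristic. -/
theorem cover_odd (h2 : (2 : F) ≠ 0) :
    ∃ T : GL₂, T ^ (2 * (Fintype.card F + 1)) = 1 ∧ ∀ g ∈ chevG2.group F, Cov (Psi T) g := by
  obtain ⟨a, ha, hirr⟩ := exists_irred_trace h2
  set T := gMk a 1 1 0 (by simp) with hTdef
  have hTd : T.val.det = -1 := by simp [T]
  have hpow : T ^ (Fintype.card F + 1) = gD (-1) (-1) (neg_ne_zero.mpr one_ne_zero) (neg_ne_zero.mpr one_ne_zero) := by
    apply Units.ext
    rw [Units.val_pow_eq_pow_val, pow_card_succ hirr _ (by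
      ext i j; fin_cases i <;> fin_cases j <;> simp [T, Matrix.mul_apply, Fin.sum_univ_two])]
    ext i j; fin_cases i <;> fin_cases j <;> simp
  have hseed : Seed T := by
    refine ⟨by simp [T], fun e he hc => ?_⟩
    have hc' : Commute e (Psi (T ^ (Fintype.card F + 1))) := by
      rw [map_pow]; exact Commute.pow_right hc _
    rw [hpow, Psi_gD, neg_mul_neg, one_mul] at hc'
    obtain ⟨t, ht, rfl⟩ := coords_fixed (neg_ne_zero.mpr one_ne_zero) one_ne_zero he hc'
    have hneg : (-1 : F) ≠ 1 := fun e => h2 (by linear_combination -e)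
    have h0 : ∀ r, r ≠ 11 → t r = 0 := by
      intro r hr
      by_contra hr0
      obtain ⟨hp, h1⟩ := ht r hr0
      have : ∀ r < 12, posExcept chevG2 0 r → r ≠ 11 → ¬ Even (pairInt chevG2 7 r) := by
        unfold posExcept; decide +kernel
      rw [one_zpow, mul_one, Odd.neg_one_zpow (Int.not_even_iff_odd.mp (this r hp.1.1 hp hr))] at h1
      exact hneg h1
    have e11 : cG.prodU t = cG.xu 11 (t 11) := by
      rw [← Cert.prodU_single cG (s := 11) pos11 (t 11)]
      congr 1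
      funext r
      by_cases hr : r = 11 <;> simp [hr, h0 r]
    rw [e11] at hc ⊢
    have := Psi_conj_x11 T (t 11)
    rw [← hc, mul_inv_cancel_right, show (detU T : F) = -1 from hTd] at this
    have h11 := xu_left_inj cG.{u} (lt_of 11) this
    have : (2 : F) * t 11 = 0 := by linear_combination h11
    rw [(mul_eq_zero.mp this).resolve_left h2, Cert.xu_zero]
  refine ⟨T, ?_, fun g hg => ?_⟩
  · rw [mul_comm, pow_mul, hpow, sq]
    apply gl2_ext <;> simp [Matrix.mul_apply, Fin.sum_univ_two]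
  obtain ⟨y, hy, A, hA, hr⟩ := exists_det_one (exists_cube_ne (Or.inl fun e => h2 (by linear_combination -e))) hg
  refine Cov.of_conj hy (hseed.cov hr ?_)
  have hTns : NonScalar T := Or.inl (by simp [T])
  have hTinv : (T⁻¹ : GL₂) = gMk 0 1 1 (-a) (by simp) := inv_eq_of_mul_eq_one_right (by
    apply gl2_ext <;> simp [T, Matrix.mul_apply, Fin.sum_univ_two])
  by_cases hns : NonScalar A
  · obtain ⟨x, w, m, hm, hq⟩ := exists_quad h2 ha A.val.trace
    obtain ⟨X, Y, rfl, tX, dX, tY, dY⟩ := exists_factor hns (p := a) (n := -1) (m := m) (x := x) (w := w)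
      (neg_ne_zero.mpr one_ne_zero) (by rw [hA]; linear_combination hq)
    have dY' : Y.val.det = -1 := by rw [dY, hA]; simp
    have hns' : ∀ Z : GL₂, Z.val.det = -1 → (Z.val.trace = a ∨ Z.val.trace = -a) → NonScalar Z := by
      intro Z dZ tZ
      refine nonScalar_of_irred fun r e => ?_
      rw [dZ] at e
      rcases tZ with t | t <;> rw [t] at e
      · exact hirr r (by linear_combination e)
      · exact hirr (-r) (by linear_combination e)
    obtain ⟨U, hU⟩ := isConj_of_trace_det hTns (hns' X dX (Or.inl tX))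
      (by rw [tX]; simp [T, Matrix.trace_fin_two]) (by rw [dX, hTd])
    refine ⟨X, Y, ⟨U, Or.inl hU⟩, ?_, rfl⟩
    rcases hm with rfl | rfl
    · obtain ⟨V, hV⟩ := isConj_of_trace_det hTns (hns' Y dY' (Or.inl tY))
        (by rw [tY]; simp [T, Matrix.trace_fin_two]) (by rw [dY', hTd])
      exact ⟨V, Or.inl hV⟩
    · obtain ⟨V, hV⟩ := isConj_of_trace_det (g := T⁻¹) (by rw [hTinv]; exact Or.inl (by simp))
        (hns' Y dY' (Or.inr tY))
        (by rw [tY, hTinv]; simp [Matrix.trace_fin_two]) (by rw [dY', hTinv]; simp)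
      exact ⟨V, Or.inr hV⟩
  · obtain ⟨h01, h10, h11⟩ := scalar_of_not hns
    rw [Matrix.det_fin_two, h01, ← h11, zero_mul, sub_zero] at hA
    rcases mul_self_eq_one_iff.mp hA with h | h
    · refine ⟨T, T⁻¹, ⟨1, Or.inl (by group)⟩, ⟨1, Or.inr (by group)⟩, ?_⟩
      rw [mul_inv_cancel]
      apply gl2_ext <;> simp [h01, h10, ← h11, h]
    · obtain ⟨V, hV⟩ := isConj_of_trace_det (g := T) (h := gMk 0 (-1) (-1) a (by simp)) hTns
        (Or.inl (by simp)) (by simp [T, Matrix.trace_fin_two]) (by rw [hTd]; simp)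
      refine ⟨T, gMk 0 (-1) (-1) a (by simp), ⟨1, Or.inl (by group)⟩, ⟨V, Or.inl hV⟩, ?_⟩
      apply gl2_ext <;> simp [T, Matrix.mul_apply, Fin.sum_univ_two, h01, h10, ← h11, h]

set_option maxHeartbeats 1600000 in
/-- Characteristic two, at least eight elements. -/
theorem cover_even (h2 : (2 : F) = 0) (h8 : 7 ≤ Fintype.card F) :
    ∃ T : GL₂, T ^ (Fintype.card F - 1) = 1 ∧ ∀ g ∈ chevG2.group F, Cov (Psi T) g := by
  classical
  obtain ⟨γ, hγ⟩ := IsCyclic.exists_generator (α := Fˣ)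
  have hord : orderOf γ = Fintype.card F - 1 := by
    rw [orderOf_eq_card_of_forall_mem_zpowers hγ, Nat.card_eq_fintype_card, Fintype.card_units]
  have hne : ∀ j : ℕ, 0 < j → j ≤ 5 → (γ : F) ^ j ≠ 1 := by
    intro j hj hj5 e
    have : γ ^ j = 1 := Units.ext (by simpa using e)
    have := Nat.le_of_dvd hj (orderOf_dvd_of_pow_eq_one this)
    omega
  set g0 : F := (γ : F)
  have hg0 : g0 ≠ 0 := γ.ne_zero
  set T := gD (g0 ^ 3) (g0 ^ 2) (pow_ne_zero 3 hg0) (pow_ne_zero 2 hg0) with hTdef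
  have hd : g0 ^ 3 ≠ g0 ^ 2 := fun e => hne 1 one_pos (by norm_num)
    (mul_left_cancel₀ (pow_ne_zero 2 hg0) (by linear_combination e))
  have hseed : Seed T := by
    refine ⟨by simp [T], fun e he hc => ?_⟩
    rw [hTdef, Psi_gD] at hc
    refine fix_of_regular (pow_ne_zero 3 hg0) (mul_ne_zero (pow_ne_zero 3 hg0) (pow_ne_zero 2 hg0)) ?_ he hc
    intro r hr
    have hv : ∀ (m n : ℤ) (k : ℕ), 3 * m + 5 * n = k → 0 < k → k ≤ 5 →
        (g0 ^ 3) ^ m * (g0 ^ 3 * g0 ^ 2) ^ n ≠ 1 := by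
      intro m n k hk h0 h5
      rw [← pow_add, ← zpow_natCast g0 3, ← zpow_natCast g0 (3 + 2), ← zpow_mul, ← zpow_mul, ← zpow_add₀ hg0]
      push_cast
      rw [hk, zpow_natCast]
      exact hne k h0 h5
    fin_cases hr
    · exact hv _ _ 1 (by decide +kernel) (by norm_num) (by norm_num)
    · exact hv _ _ 2 (by decide +kernel) (by norm_num) (by norm_num)
    · exact hv _ _ 3 (by decide +kernel) (by norm_num) (by norm_num)
    · exact hv _ _ 4 (by decide +kernel) (by norm_num) (by norm_num)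
    · exact hv _ _ 5 (by decide +kernel) (by norm_num) (by norm_num)
  refine ⟨T, ?_, fun g hg => ?_⟩
  · apply Units.ext
    rw [Units.val_pow_eq_pow_val, hTdef, coe_gD, show (!![g0 ^ 3, 0; 0, g0 ^ 2] : Matrix (Fin 2) (Fin 2) F) =
      Matrix.diagonal ![g0 ^ 3, g0 ^ 2] by ext i j; fin_cases i <;> fin_cases j <;> simp,
      Matrix.diagonal_pow]
    have h1 : g0 ^ (Fintype.card F - 1) = 1 := FiniteField.pow_card_sub_one_eq_one g0 hg0
    ext i j; fin_cases i <;> fin_cases j <;> simp [← pow_mul, mul_comm, h1] <;>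
      simp [mul_comm _ (Fintype.card F - 1), pow_mul, h1]
  obtain ⟨y, hy, A, hA, hr⟩ := exists_det_one (exists_cube_ne (Or.inr ⟨g0, hg0, fun e =>
    hne 3 (by norm_num) (by norm_num) (by linear_combination e)⟩)) hg
  refine Cov.of_conj hy (hseed.cov hr ?_)
  by_cases hns : NonScalar A
  · obtain ⟨Y, hY⟩ := exists_conj_corner A hns 1
    refine Good.of_conj (Y := Y) ?_
    have hdet := det_conj Y A
    rw [hA, Matrix.det_fin_two, hY] at hdet
    set B := Y * A * Y⁻¹
    have hTns : NonScalar T := Or.inr (Or.inr (by simpa [T] using hd))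
    have hTins : NonScalar (T⁻¹ : GL₂) := by
      by_contra hc
      obtain ⟨h1, h2, h3⟩ := scalar_of_not hc
      have hcm : (T⁻¹ : GL₂) = gD (g0 ^ 3)⁻¹ (g0 ^ 2)⁻¹ (inv_ne_zero (pow_ne_zero 3 hg0)) (inv_ne_zero (pow_ne_zero 2 hg0)) :=
        inv_eq_of_mul_eq_one_right (by apply gl2_ext <;> simp [T, Matrix.mul_apply, Fin.sum_univ_two, hg0])
      rw [hcm] at h3
      simp at h3
      exact hd h3
    have hTi : (T⁻¹ : GL₂).val = !![(g0 ^ 3)⁻¹, 0; 0, (g0 ^ 2)⁻¹] := by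
      rw [Matrix.coe_units_inv]
      refine Matrix.inv_eq_right_inv ?_
      ext i j; fin_cases i <;> fin_cases j <;> simp [T, Matrix.mul_apply, Fin.sum_univ_two, hg0]
    obtain ⟨U, hU⟩ := isConj_of_trace_det (g := T) (h := gL (B.val 1 0) * T) hTns
      (Or.inr (Or.inr (by simpa [T, Matrix.mul_apply, Fin.sum_univ_two] using hd)))
      (by simp [T, Matrix.trace_fin_two, Matrix.mul_apply, Fin.sum_univ_two])
      (by simp [T, Matrix.det_fin_two, Matrix.mul_apply, Fin.sum_univ_two])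
    obtain ⟨V, hV⟩ := isConj_of_trace_det (g := T⁻¹) (h := T⁻¹ * gU (B.val 0 1)) hTins
      (Or.inr (Or.inr (by
        simp only [Units.val_mul, hTi, coe_gU]
        simp [Matrix.mul_apply, Fin.sum_univ_two]
        exact hd)))
      (by simp only [Units.val_mul, hTi, coe_gU]; simp [Matrix.trace_fin_two, Matrix.mul_apply, Fin.sum_univ_two])
      (by simp only [Units.val_mul, hTi, coe_gU, Matrix.det_mul]; simp)
    refine ⟨_, _, ⟨U, Or.inl hU⟩, ⟨V, Or.inr hV⟩, ?_⟩
    rw [mul_assoc, ← mul_assoc T, mul_inv_cancel, one_mul]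
    apply gl2_ext <;> simp [Matrix.mul_apply, Fin.sum_univ_two, hY]
    linear_combination hdet
  · obtain ⟨h01, h10, h11⟩ := scalar_of_not hns
    rw [Matrix.det_fin_two, h01, ← h11, zero_mul, sub_zero] at hA
    have h : A.val 0 0 = 1 := by
      rcases mul_self_eq_one_iff.mp hA with h | h
      · exact h
      · rw [h]; linear_combination -h2
    refine ⟨T, T⁻¹, ⟨1, Or.inl (by group)⟩, ⟨1, Or.inr (by group)⟩, ?_⟩
    rw [mul_inv_cancel]
    apply gl2_ext <;> simp [h01, h10, ← h11, h]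

end Cfsg.Agent.Chev.G2Cov
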