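import Cfsg.Agent.Chev.G2Odd.SL2Facts
import Mathlib.LinearAlgebra.Matrix.GeneralLinearGroup.Defs
import Mathlib.FieldTheory.Finite.Basic
import Mathlib.RingTheory.AdjoinRoot

/-!
Elementary facts on `GL₂` used for the products of two semisimple classes of `G₂(q)`.
-/

set_option autoImplicit false

universe u

namespace Cfsg.Agent.Chev.G2Cov

variable {F : Type u} [Field F]

local notation "GL₂" => GL (Fin 2) F
local notation "SL₂" => Matrix.SpecialLinearGroup (Fin 2) F

theorem gl2_det_ne (g : GL₂) : g.val 0 0 * g.val 1 1 - g.val 0 1 * g.val 1 0 ≠ 0 := by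
  rw [← Matrix.det_fin_two]
  exact ((Matrix.isUnit_iff_isUnit_det _).mp g.isUnit).ne_zero

/-- The element with the given entries. -/
noncomputable def gMk (a b c d : F) (h : a * d - b * c ≠ 0) : GL₂ :=
  Matrix.GeneralLinearGroup.mkOfDetNeZero !![a, b; c, d] (by rwa [Matrix.det_fin_two_of])

@[simp] theorem coe_gMk (a b c d : F) (h : a * d - b * c ≠ 0) :
    (gMk a b c d h : Matrix (Fin 2) (Fin 2) F) = !![a, b; c, d] := rfl

noncomputable def gU (t : F) : GL₂ := gMk 1 t 0 1 (by simp)
noncomputable def gL (t : F) : GL₂ := gMk 1 0 t 1 (by simp)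
noncomputable def gD (a b : F) (ha : a ≠ 0) (hb : b ≠ 0) : GL₂ := gMk a 0 0 b (by simp [ha, hb])
noncomputable def gW : GL₂ := gMk 0 1 (-1) 0 (by simp)

@[simp] theorem coe_gU (t : F) : (gU t : Matrix (Fin 2) (Fin 2) F) = !![1, t; 0, 1] := rfl
@[simp] theorem coe_gL (t : F) : (gL t : Matrix (Fin 2) (Fin 2) F) = !![1, 0; t, 1] := rfl
@[simp] theorem coe_gD (a b : F) (ha : a ≠ 0) (hb : b ≠ 0) :
    (gD a b ha hb : Matrix (Fin 2) (Fin 2) F) = !![a, 0; 0, b] := rfl
@[simp] theorem coe_gW : (gW : GL₂).val = !![0, 1; -1, 0] := rfl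

theorem gl2_ext {g h : GL₂} (e00 : g.val 0 0 = h.val 0 0) (e01 : g.val 0 1 = h.val 0 1)
    (e10 : g.val 1 0 = h.val 1 0) (e11 : g.val 1 1 = h.val 1 1) : g = h := by
  apply Units.ext
  ext i j
  fin_cases i <;> fin_cases j <;> assumption

/-- A diagonal matrix with two equal entries is central. -/
theorem scalar_comm {g : GL₂} (h1 : g.val 0 1 = 0) (h2 : g.val 1 0 = 0) (h3 : g.val 0 0 = g.val 1 1)
    (Y : GL₂) : Y * g * Y⁻¹ = g := by
  rw [mul_inv_eq_iff_eq_mul]
  apply gl2_ext <;> simp [Matrix.mul_apply, Matrix.vecMul, dotProduct, Fin.sum_univ_two, h1, h2, ← h3] <;> ring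

/-- Not a scalar matrix. -/
def NonScalar (g : GL₂) : Prop := g.val 0 1 ≠ 0 ∨ g.val 1 0 ≠ 0 ∨ g.val 0 0 ≠ g.val 1 1

theorem scalar_of_not {g : GL₂} (h : ¬ NonScalar g) :
    g.val 0 1 = 0 ∧ g.val 1 0 = 0 ∧ g.val 0 0 = g.val 1 1 := by
  simpa [NonScalar] using h

theorem eq_LDU (g : GL₂) (h : g.val 0 0 ≠ 0) :
    g = gL (g.val 1 0 / g.val 0 0) *
      gD (g.val 0 0) ((g.val 0 0 * g.val 1 1 - g.val 0 1 * g.val 1 0) / g.val 0 0) h
        (div_ne_zero (gl2_det_ne g) h) *
      gU (g.val 0 1 / g.val 0 0) := by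
  apply gl2_ext <;> simp [Matrix.mul_apply, Matrix.vecMul, dotProduct, Fin.sum_univ_two] <;> field_simp <;> ring

theorem exists_conj_corner (g : GL₂) (hns : NonScalar g) (d : F) :
    ∃ Y : GL₂, (Y * g * Y⁻¹).val 0 0 = d := by
  have hU : ∀ {g : GL₂}, g.val 1 0 ≠ 0 → ∃ Y : GL₂, (Y * g * Y⁻¹).val 0 0 = d := by
    intro g h
    refine ⟨gU ((d - g.val 0 0) / g.val 1 0), ?_⟩
    have e : ∀ t : F, (gU t : GL₂)⁻¹ = gU (-t) := fun t => inv_eq_of_mul_eq_one_right (by
      apply gl2_ext <;> simp [Matrix.mul_apply, Matrix.vecMul, dotProduct, Fin.sum_univ_two])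
    rw [e]
    simp [Matrix.mul_apply, Matrix.vecMul, dotProduct, Fin.sum_univ_two]
    field_simp
    ring
  by_cases h10 : g.val 1 0 = 0
  · by_cases h01 : g.val 0 1 = 0
    · have hne : g.val 0 0 ≠ g.val 1 1 := by simpa [NonScalar, h10, h01] using hns
      have e : (gL (1 : F) : GL₂)⁻¹ = gL (-1) := inv_eq_of_mul_eq_one_right (by
        apply gl2_ext <;> simp [Matrix.mul_apply, Matrix.vecMul, dotProduct, Fin.sum_univ_two])
      obtain ⟨Y, hY⟩ := hU (g := gL 1 * g * (gL 1)⁻¹) (by
        rw [e]; simp [Matrix.mul_apply, Matrix.vecMul, dotProduct, Fin.sum_univ_two, h10, h01]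
        intro hh; exact hne (by linear_combination hh))
      exact ⟨Y * gL 1, by rw [← hY]; group⟩
    · have e : (gW : GL₂)⁻¹ = gMk 0 (-1) 1 0 (by simp) := inv_eq_of_mul_eq_one_right (by
        apply gl2_ext <;> simp [Matrix.mul_apply, Matrix.vecMul, dotProduct, Fin.sum_univ_two])
      obtain ⟨Y, hY⟩ := hU (g := gW * g * gW⁻¹) (by
        rw [e]; simpa [Matrix.mul_apply, Matrix.vecMul, dotProduct, Fin.sum_univ_two] using h01)
      exact ⟨Y * gW, by rw [← hY]; group⟩
  · exact hU h10

/-- Conjugate to the companion matrix. -/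
theorem exists_conj_comp (g : GL₂) (hns : NonScalar g) :
    ∃ Y : GL₂, (Y * g * Y⁻¹).val 0 0 = 0 ∧ (Y * g * Y⁻¹).val 1 0 = 1 := by
  obtain ⟨Y, hY⟩ := exists_conj_corner g hns 0
  set B := Y * g * Y⁻¹ with hB
  have hd := gl2_det_ne B
  rw [hY] at hd
  have h10 : B.val 1 0 ≠ 0 := fun e => hd (by rw [e]; ring)
  refine ⟨gD 1 (B.val 1 0)⁻¹ one_ne_zero (inv_ne_zero h10) * Y, ?_⟩
  have e : gD 1 (B.val 1 0)⁻¹ one_ne_zero (inv_ne_zero h10) * Y * g *
      (gD 1 (B.val 1 0)⁻¹ one_ne_zero (inv_ne_zero h10) * Y)⁻¹ =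
      gD 1 (B.val 1 0)⁻¹ one_ne_zero (inv_ne_zero h10) * B * gD 1 (B.val 1 0) one_ne_zero h10 := by
    have : (gD 1 (B.val 1 0)⁻¹ one_ne_zero (inv_ne_zero h10) : GL₂)⁻¹ =
        gD 1 (B.val 1 0) one_ne_zero h10 := inv_eq_of_mul_eq_one_right (by
      apply gl2_ext <;> simp [Matrix.mul_apply, Matrix.vecMul, dotProduct, Fin.sum_univ_two, h10])
    simp only [← this, mul_inv_rev, mul_assoc]
    simp only [B, mul_assoc]
  rw [e]
  constructor <;> simp [Matrix.mul_apply, Matrix.vecMul, dotProduct, Fin.sum_univ_two, hY, h10]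

theorem trace_conj (Y g : GL₂) :
    (Y * g * Y⁻¹).val.trace = g.val.trace := by
  rw [Units.val_mul, Units.val_mul, Matrix.trace_mul_comm, ← mul_assoc, ← Units.val_mul, inv_mul_cancel,
    Units.val_one, one_mul]

theorem det_conj (Y g : GL₂) :
    (Y * g * Y⁻¹).val.det = g.val.det := by
  rw [Units.val_mul, Units.val_mul, Matrix.det_mul_comm, ← mul_assoc, ← Units.val_mul, inv_mul_cancel,
    Units.val_one, one_mul]

theorem isConj_of_trace_det {g h : GL₂} (hg : NonScalar g) (hh : NonScalar h)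
    (ht : g.val.trace = h.val.trace) (hd : g.val.det = h.val.det) : ∃ Y : GL₂, h = Y * g * Y⁻¹ := by
  obtain ⟨Y, y0, y1⟩ := exists_conj_comp g hg
  obtain ⟨Z, z0, z1⟩ := exists_conj_comp h hh
  have e : Y * g * Y⁻¹ = Z * h * Z⁻¹ := by
    have t1 := trace_conj Y g
    have t2 := trace_conj Z h
    have d1 := det_conj Y g
    have d2 := det_conj Z h
    rw [Matrix.trace_fin_two, y0, zero_add] at t1
    rw [Matrix.trace_fin_two, z0, zero_add] at t2
    rw [Matrix.det_fin_two, y0, y1] at d1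
    rw [Matrix.det_fin_two, z0, z1] at d2
    refine gl2_ext (by rw [y0, z0]) ?_ (by rw [y1, z1]) (by rw [t1, t2, ht])
    rw [← hd] at d2
    linear_combination d2 - d1
  exact ⟨Z⁻¹ * Y, by
    rw [show Z⁻¹ * Y * g * (Z⁻¹ * Y)⁻¹ = Z⁻¹ * (Y * g * Y⁻¹) * Z by group, e]; group⟩

/-- A nonscalar `A` is a product `X Y` as soon as suitable traces and determinants are met
in companion form. -/
theorem exists_factor {A : GL₂} (hA : NonScalar A) {p n m x w : F} (hn : n ≠ 0)
    (hz : x * (p - x) - (w * A.val.det + x * A.val.trace - m * n) * w = n) :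
    ∃ X Y : GL₂, A = X * Y ∧ X.val.trace = p ∧ X.val.det = n ∧ Y.val.trace = m ∧
      Y.val.det = A.val.det / n := by
  obtain ⟨Z, z0, z1⟩ := exists_conj_comp A hA
  set B := Z * A * Z⁻¹ with hB
  have tB : B.val 1 1 = A.val.trace := by
    rw [← trace_conj Z A, Matrix.trace_fin_two, z0, zero_add]
  have dB : B.val 0 1 = - A.val.det := by
    rw [← det_conj Z A, Matrix.det_fin_two, z0, z1]; ring
  set X := gMk x (w * A.val.det + x * A.val.trace - m * n) w (p - x) (by rw [hz]; exact hn) with hX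
  have hXd : X.val.det = n := by rw [hX, coe_gMk, Matrix.det_fin_two_of, hz]
  have hXt : X.val.trace = p := by rw [hX, coe_gMk, Matrix.trace_fin_two_of]; ring
  refine ⟨Z⁻¹ * X * Z⁻¹⁻¹, Z⁻¹ * (X⁻¹ * B) * Z⁻¹⁻¹, by rw [hB]; group, by rw [trace_conj, hXt],
    by rw [det_conj, hXd], ?_, ?_⟩
  · rw [trace_conj, Matrix.trace_fin_two, Units.val_mul, Matrix.coe_units_inv, Matrix.inv_def, hXd,
      hX, coe_gMk, Matrix.adjugate_fin_two_of]
    simp [Matrix.mul_apply, Matrix.vecMul, dotProduct, Fin.sum_univ_two, z0, z1, tB, dB]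
    field_simp
    ring
  · rw [det_conj, Units.val_mul, Matrix.det_mul, Matrix.coe_units_inv, Matrix.det_nonsing_inv,
      Ring.inverse_eq_inv', hXd, hB, det_conj]
    rw [div_eq_inv_mul]

theorem nonScalar_of_irred {g : GL₂} (h : ∀ r : F, r * r - g.val.trace * r + g.val.det ≠ 0) :
    NonScalar g := by
  by_contra hc
  obtain ⟨h1, h2, h3⟩ := scalar_of_not hc
  apply h (g.val 0 0)
  rw [Matrix.trace_fin_two, Matrix.det_fin_two, h1, ← h3]; ring

variable [Fintype F]

/-- In odd characteristic some `a ≠ 0` has `X² - aX - 1` without roots. -/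
theorem exists_irred_trace (h2 : (2 : F) ≠ 0) :
    ∃ a : F, a ≠ 0 ∧ ∀ r : F, r * r - a * r - 1 ≠ 0 := by
  obtain ⟨c, hc⟩ := FiniteField.exists_nonsquare (F := F) (fun e => h2 (by
    have := ringChar.Nat.cast_ringChar (R := F)
    rw [e] at this
    exact_mod_cast this))
  by_contra hcon
  push_neg at hcon
  have h4 : ∀ s : F, IsSquare s → IsSquare (s + 4) := by
    rintro s ⟨a, rfl⟩
    by_cases ha : a = 0
    · exact ⟨2, by subst ha; ring⟩
    · obtain ⟨r, hr⟩ := hcon a ha
      exact ⟨2 * r - a, by linear_combination (-4 : F) * hr⟩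
  have hk : ∀ (k : ℕ) (s : F), IsSquare s → IsSquare (s + k * 4) := by
    intro k
    induction k with
    | zero => intro s hs; simpa using hs
    | succ k ih => intro s hs; rw [Nat.cast_succ, add_mul, one_mul, ← add_assoc]; exact h4 _ (ih s hs)
  obtain ⟨p, hp⟩ := CharP.exists F
  have hpp : p.Prime := CharP.char_is_prime F p
  have h4ne : (4 : F) ≠ 0 := by
    have := mul_ne_zero h2 h2
    intro e; apply this; linear_combination e
  have h1 : ∀ s : F, IsSquare s → IsSquare (s + 1) := by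
    intro s hs
    haveI := Fact.mk hpp
    set k := ((4 : ZMod p)⁻¹).val
    have : (k : F) * 4 = 1 := by
      have h40 : (4 : ZMod p) ≠ 0 := fun e => h4ne (by
        have := congrArg (ZMod.castHom (dvd_refl p) F) e
        rwa [map_ofNat, map_zero] at this)
      have e : ((k : ZMod p) * 4) = 1 := by
        rw [ZMod.natCast_zmod_val]; exact inv_mul_cancel₀ h40
      have := congrArg (ZMod.castHom (dvd_refl p) F) e
      rwa [map_mul, map_ofNat, map_natCast, map_one] at this
    have h := hk k s hs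
    rwa [this] at h
  have hadd : ∀ s t : F, IsSquare s → IsSquare t → IsSquare (s + t) := by
    rintro s t ⟨u, rfl⟩ ⟨v, rfl⟩
    by_cases hv : v = 0
    · subst hv; exact ⟨u, by ring⟩
    · obtain ⟨w, hw⟩ := h1 ((u / v) * (u / v)) ⟨u / v, rfl⟩
      exact ⟨w * v, by field_simp at hw; linear_combination hw⟩
  obtain ⟨a, b, hab⟩ := FiniteField.exists_root_sum_quadratic
    (f := (Polynomial.X ^ 2 : Polynomial F)) (g := Polynomial.X ^ 2 - Polynomial.C c)
    (by simp) (Polynomial.degree_X_pow_sub_C two_pos c) (FiniteField.odd_card_of_char_ne_two (fun e => h2 (by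
      have := ringChar.Nat.cast_ringChar (R := F)
      rw [e] at this
      exact_mod_cast this)))
  simp at hab
  have : c = a * a + b * b := by linear_combination -hab
  exact hc (this ▸ hadd _ _ ⟨a, rfl⟩ ⟨b, rfl⟩)

/-- The key quadratic: traces `a`, `a` or `a`, `-a` reach every trace of determinant one. -/
theorem exists_quad (h2 : (2 : F) ≠ 0) {a : F} (ha : a ≠ 0) (T : F) :
    ∃ x w : F, ∃ m : F, (m = a ∨ m = -a) ∧
      x * (a - x) - (w * 1 + x * T - m * (-1)) * w = -1 := by
  set i := (2 : F)⁻¹ with hi'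
  have hi : 2 * i = 1 := mul_inv_cancel₀ h2
  by_cases hT : 1 - T * T * i * i = 0
  · have key : ∀ m : F, a * T * i + m ≠ 0 →
        ∃ x w : F, x * (a - x) - (w * 1 + x * T - m * (-1)) * w = -1 := by
      intro m hcoef
      obtain ⟨w, e⟩ : ∃ w, (a * T * i + m) * w = 1 := ⟨_, mul_inv_cancel₀ hcoef⟩
      exact ⟨-(T * i * w), w, by
        linear_combination -w ^ 2 * hT - T ^ 2 * w ^ 2 * i * hi - e⟩
    have h' : (1 - T * i) * (1 + T * i) = 0 := by linear_combination hT
    rcases mul_eq_zero.mp h' with h | h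
    · obtain ⟨x, w, e⟩ := key a (fun e => mul_ne_zero ha h2 (by linear_combination e + a * h))
      exact ⟨x, w, a, Or.inl rfl, e⟩
    · obtain ⟨x, w, e⟩ := key (-a) (fun e => mul_ne_zero ha h2 (by linear_combination -e + a * h))
      exact ⟨x, w, -a, Or.inr rfl, e⟩
  · obtain ⟨u, w, huw⟩ := FiniteField.exists_root_sum_quadratic
      (f := (Polynomial.C 1 * Polynomial.X ^ 2 + Polynomial.C (-a) * Polynomial.X + Polynomial.C (-1) : Polynomial F))
      (g := Polynomial.C (1 - T * T * i * i) * Polynomial.X ^ 2 + Polynomial.C (a * T * i + a) * Polynomial.X + Polynomial.C 0)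
      (Polynomial.degree_quadratic one_ne_zero) (Polynomial.degree_quadratic hT)
      (FiniteField.odd_card_of_char_ne_two (fun e => h2 (by
        have := ringChar.Nat.cast_ringChar (R := F)
        rw [e] at this
        exact_mod_cast this)))
    simp only [Polynomial.eval_add, Polynomial.eval_mul, Polynomial.eval_C, Polynomial.eval_X,
      Polynomial.eval_pow] at huw
    refine ⟨u - T * i * w, w, a, Or.inl rfl, ?_⟩
    linear_combination -huw + (T * u * w - T ^ 2 * w ^ 2 * i) * hi

theorem exists_root_pow {f : Polynomial F} (hf : Irreducible f) (r : AdjoinRoot f) (hr : r = AdjoinRoot.root f) :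
    r ^ Fintype.card F ≠ r ∨ f.natDegree = 1 := by
  haveI := Fact.mk hf
  by_contra hc
  push_neg at hc
  obtain ⟨hc, hdeg⟩ := hc
  have hmem : r ∈ Set.range (algebraMap F (AdjoinRoot f)) := by
    classical
    set S : Finset (AdjoinRoot f) := Finset.univ.image (algebraMap F (AdjoinRoot f))
    by_contra hout
    have hnot : r ∉ S := fun h => hout (by
      obtain ⟨b, -, hb⟩ := Finset.mem_image.mp h
      exact ⟨b, hb⟩)
    have hq := Fintype.one_lt_card (α := F)
    set P : Polynomial (AdjoinRoot f) := Polynomial.X ^ Fintype.card F - Polynomial.X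
    have hP : P ≠ 0 := FiniteField.X_pow_card_sub_X_ne_zero _ hq
    have hsub : (insert r S).val ⊆ P.roots := by
      intro z hz
      rw [Polynomial.mem_roots hP]
      rcases Finset.mem_insert.mp hz with rfl | hz
      · simp [P, hc]
      · obtain ⟨b, -, rfl⟩ := Finset.mem_image.mp hz
        simp [P, ← map_pow, FiniteField.pow_card]
    have hle := Polynomial.card_le_degree_of_subset_roots hsub
    rw [FiniteField.X_pow_card_sub_X_natDegree_eq _ hq, Finset.card_insert_of_notMem hnot,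
      Finset.card_image_of_injective _ (algebraMap F (AdjoinRoot f)).injective, Finset.card_univ] at hle
    omega
  obtain ⟨b, hb⟩ := hmem
  have h0 : f.IsRoot b := by
    apply (algebraMap F (AdjoinRoot f)).injective
    rw [map_zero, ← Polynomial.aeval_algebraMap_apply_eq_algebraMap_eval, hb, hr, AdjoinRoot.aeval_eq,
      AdjoinRoot.mk_self]
  exact hdeg (Polynomial.natDegree_eq_of_degree_eq_some (Polynomial.degree_eq_one_of_irreducible_of_root hf h0))

/-- A matrix of determinant `-1` without eigenvalues has `A ^ (q + 1) = -1`. -/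
theorem pow_card_succ {a : F} (hirr : ∀ r : F, r * r - a * r - 1 ≠ 0) (A : Matrix (Fin 2) (Fin 2) F)
    (hA : A * A - a • A - 1 = 0) : A ^ (Fintype.card F + 1) = -1 := by
  obtain ⟨f, hf⟩ : ∃ f : Polynomial F,
      f = Polynomial.X ^ 2 + Polynomial.C (-a) * Polynomial.X + Polynomial.C (-1) := ⟨_, rfl⟩
  have hdeg : f.natDegree = 2 := by
    rw [hf, show (Polynomial.X ^ 2 : Polynomial F) = Polynomial.C 1 * Polynomial.X ^ 2 by simp]
    exact Polynomial.natDegree_quadratic one_ne_zero
  have hirred : Irreducible f := by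
    rw [Polynomial.irreducible_iff_roots_eq_zero_of_degree_le_three (by omega) (by omega)]
    refine Multiset.eq_zero_of_forall_notMem fun r hr => ?_
    have := Polynomial.isRoot_of_mem_roots hr
    simp [hf] at this
    exact hirr r (by linear_combination this)
  haveI := Fact.mk hirred
  set r := AdjoinRoot.root f
  have hr : r * r - algebraMap F (AdjoinRoot f) a * r - 1 = 0 := by
    have e : Polynomial.aeval r f = 0 := by rw [AdjoinRoot.aeval_eq, AdjoinRoot.mk_self]
    have e' := congrArg (Polynomial.aeval r) hf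
    rw [e] at e'
    simp [← AdjoinRoot.algebraMap_eq] at e'
    linear_combination -e'
  set q := Fintype.card F
  haveI : Module.Finite F (AdjoinRoot f) := (AdjoinRoot.powerBasis hirred.ne_zero).finite
  haveI : Finite (AdjoinRoot f) := Module.finite_of_finite F
  have hr' : r ^ q * r ^ q - algebraMap F (AdjoinRoot f) a * r ^ q - 1 = 0 := by
    have h := congrArg (FiniteField.frobeniusAlgHom F (AdjoinRoot f)) hr
    simp only [map_sub, map_mul, map_one, map_zero, AlgHom.commutes] at h
    simpa [FiniteField.frobeniusAlgHom_apply] using h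
  have hne : r ^ q ≠ r := (exists_root_pow hirred r rfl).resolve_right (by omega)
  have hsum : r ^ q + r = algebraMap F (AdjoinRoot f) a := by
    have : (r ^ q - r) * (r ^ q + r - algebraMap F (AdjoinRoot f) a) = 0 := by linear_combination hr' - hr
    exact sub_eq_zero.mp ((mul_eq_zero.mp this).resolve_left (sub_ne_zero.mpr hne))
  have hprod : r ^ (q + 1) + 1 = 0 := by
    rw [pow_succ]; linear_combination r * hsum - hr
  have hdvd : f ∣ Polynomial.X ^ (q + 1) + 1 := by
    rw [← AdjoinRoot.mk_eq_zero, map_add, map_pow, map_one, AdjoinRoot.mk_X]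
    exact hprod
  obtain ⟨g, hg⟩ := hdvd
  have hA' : Polynomial.aeval A f = 0 := by
    rw [hf]; simp [sq, Algebra.algebraMap_eq_smul_one]
    rw [← hA]; abel
  have := congrArg (Polynomial.aeval A) hg
  rw [map_mul, hA', zero_mul] at this
  simp at this
  exact eq_neg_of_add_eq_zero_left this

end Cfsg.Agent.Chev.G2Cov
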