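import Cfsg.Agent.Chev.G2Cov.GL2
import Cfsg.Agent.Chev.G2Odd.Basic

/-!
The two fundamental Levi subgroups of `G₂` as images of `GL₂`.
-/

set_option autoImplicit false

universe u

namespace Cfsg.Agent.Chev.G2Cov

open Cfsg.Lie
open Cfsg.Agent.Chev.G2Odd
open scoped Matrix MatrixGroups

variable {F : Type u} [Field F]

local notation "GL₂" => GL (Fin 2) F
local notation "SL₂" => Matrix.SpecialLinearGroup (Fin 2) F
local notation "GG" => GL chevG2.Idx F

/-- Scaling a special linear matrix by `diag(1, c)`. -/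
noncomputable def sigma (c : Fˣ) : SL₂ →* SL₂ where
  toFun g := ⟨!![g 0 0, (c : F)⁻¹ * g 0 1; (c : F) * g 1 0, g 1 1], by
    rw [Matrix.det_fin_two_of]
    have := sl2_det g
    field_simp
    linear_combination this⟩
  map_one' := by
    apply Subtype.ext; ext i j; fin_cases i <;> fin_cases j <;> simp
  map_mul' g h := by
    apply Subtype.ext
    show !![(g * h) 0 0, (c : F)⁻¹ * (g * h) 0 1; (c : F) * (g * h) 1 0, (g * h) 1 1] =
      !![g 0 0, (c : F)⁻¹ * g 0 1; (c : F) * g 1 0, g 1 1] * !![h 0 0, (c : F)⁻¹ * h 0 1; (c : F) * h 1 0, h 1 1]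
    rw [Matrix.mul_fin_two]
    simp only [sl2_mul_apply]
    ext i j
    fin_cases i <;> fin_cases j <;> simp <;> field_simp

theorem coe_sigma (c : Fˣ) (g : SL₂) :
    (sigma c g : Matrix (Fin 2) (Fin 2) F) = !![g 0 0, (c : F)⁻¹ * g 0 1; (c : F) * g 1 0, g 1 1] := rfl

/-- The determinant of an element of `GL₂` as a unit. -/
noncomputable def detU (g : GL₂) : Fˣ := Matrix.GeneralLinearGroup.det g

theorem coe_detU (g : GL₂) : (detU g : F) = g.val 0 0 * g.val 1 1 - g.val 0 1 * g.val 1 0 := by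
  rw [← Matrix.det_fin_two]; rfl

/-- The special linear part. -/
noncomputable def slPart (g : GL₂) : SL₂ :=
  ⟨!![g.val 0 0, g.val 0 1; (detU g : F)⁻¹ * g.val 1 0, (detU g : F)⁻¹ * g.val 1 1], by
    rw [Matrix.det_fin_two_of]
    have h : (detU g : F) ≠ 0 := Units.ne_zero _
    field_simp
    rw [coe_detU]⟩

theorem coe_slPart (g : GL₂) : (slPart g : Matrix (Fin 2) (Fin 2) F) =
    !![g.val 0 0, g.val 0 1; (detU g : F)⁻¹ * g.val 1 0, (detU g : F)⁻¹ * g.val 1 1] := rfl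

theorem slPart_mul (g h : GL₂) : slPart (g * h) = sigma (detU h)⁻¹ (slPart g) * slPart h := by
  have h1 : (detU g : F) ≠ 0 := Units.ne_zero _
  have h2 : (detU h : F) ≠ 0 := Units.ne_zero _
  have e : (detU (g * h) : F) = detU g * detU h := by simp [detU]
  refine sl2_ext _ _ ?_ ?_ ?_ ?_ <;> rw [sl2_mul_apply] <;>
    simp [coe_slPart, coe_sigma, e, Matrix.mul_apply, Fin.sum_univ_two] <;>
    field_simp

/-- A root `SL₂` with a one-dimensional torus acting on it as `diag(1, c)`. -/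
structure LeviData (F : Type u) [Field F] where
  r : ℕ
  phi : Matrix.SpecialLinearGroup (Fin 2) F →* GL chevG2.Idx F
  tor : Fˣ →* GL chevG2.Idx F
  hphi : RootHom cG r phi
  conjU : ∀ (c : Fˣ) (t : F), tor c * cG.xu r t * (tor c)⁻¹ = cG.xu r ((c : F)⁻¹ * t)
  conjL : ∀ (c : Fˣ) (t : F), tor c * cG.xu (chevG2.neg r) t * (tor c)⁻¹ = cG.xu (chevG2.neg r) ((c : F) * t)

namespace LeviData

variable (L : LeviData F)

theorem tor_phi (c : Fˣ) (g : SL₂) : L.tor c * L.phi g * (L.tor c)⁻¹ = L.phi (sigma c g) := by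
  refine sl2_induction (fun g => L.tor c * L.phi g * (L.tor c)⁻¹ = L.phi (sigma c g)) ?_ ?_ ?_ g
  · intro t
    have e : sigma c (sl2U t) = sl2U ((c : F)⁻¹ * t) := by
      apply Subtype.ext
      rw [coe_sigma]
      ext i j
      fin_cases i <;> fin_cases j <;> simp [sl2U]
    rw [e, L.hphi.U, L.hphi.U, L.conjU]
  · have e : sigma c (sl2W : SL₂) = sl2U (c : F)⁻¹ * sl2L (-(c : F)) * sl2U (c : F)⁻¹ := by
      apply Subtype.ext
      simp only [Matrix.SpecialLinearGroup.coe_mul, coe_sigma]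
      ext i j
      fin_cases i <;> fin_cases j <;>
        simp [sl2U, sl2L, sl2W, Matrix.mul_apply, Fin.sum_univ_two]
    rw [e, sl2W_eq]
    simp only [map_mul, L.hphi.U, L.hphi.L]
    have h1 := L.conjU c 1
    have h2 := L.conjL c (-1)
    rw [mul_one] at h1
    rw [mul_neg_one] at h2
    rw [← h1, ← h2]; group
  · intro a b ha hb
    simp only [map_mul]
    rw [← ha, ← hb]; group

/-- The homomorphism from `GL₂`. -/
noncomputable def hom : GL₂ →* GG where
  toFun g := L.tor (detU g) * L.phi (slPart g)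
  map_one' := by
    have e : slPart (1 : GL₂) = 1 := by
      apply Subtype.ext; ext i j; fin_cases i <;> fin_cases j <;> simp [slPart, detU]
    rw [e]; simp [detU]
  map_mul' g h := by
    rw [slPart_mul, map_mul, ← L.tor_phi, show detU (g * h) = detU g * detU h from map_mul _ _ _, map_mul,
      map_inv]
    group

theorem hom_apply (g : GL₂) : L.hom g = L.tor (detU g) * L.phi (slPart g) := rfl

theorem hom_gU (t : F) : L.hom (gU t) = cG.xu L.r t := by
  have e : detU (gU t : GL₂) = 1 := Units.ext (by simp [coe_detU])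
  have e' : slPart (gU t : GL₂) = sl2U t := by
    apply Subtype.ext; ext i j; fin_cases i <;> fin_cases j <;> simp [slPart, sl2U, e]
  rw [hom_apply, e, e', map_one, one_mul, L.hphi.U]

theorem hom_gL (t : F) : L.hom (gL t) = cG.xu (chevG2.neg L.r) t := by
  have e : detU (gL t : GL₂) = 1 := Units.ext (by simp [coe_detU])
  have e' : slPart (gL t : GL₂) = sl2L t := by
    apply Subtype.ext; ext i j; fin_cases i <;> fin_cases j <;> simp [slPart, sl2L, e]
  rw [hom_apply, e, e', map_one, one_mul, L.hphi.L]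

theorem hom_gD (a b : F) (ha : a ≠ 0) (hb : b ≠ 0) :
    L.hom (gD a b ha hb) = L.tor (Units.mk0 (a * b) (mul_ne_zero ha hb)) * cG.hu L.r a := by
  have e : detU (gD a b ha hb) = Units.mk0 (a * b) (mul_ne_zero ha hb) := Units.ext (by simp [coe_detU])
  have e' : slPart (gD a b ha hb) = sl2D a ha := by
    apply Subtype.ext; ext i j
    fin_cases i <;> fin_cases j <;> simp [slPart, e, hb, mul_comm, mul_left_comm, mul_assoc]
  rw [hom_apply, e, e', L.hphi.map_D]

theorem hom_LDU (g : GL₂) (h : g.val 0 0 ≠ 0) :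
    L.hom g = cG.xu (chevG2.neg L.r) (g.val 1 0 / g.val 0 0) *
      L.hom (gD (g.val 0 0) ((g.val 0 0 * g.val 1 1 - g.val 0 1 * g.val 1 0) / g.val 0 0) h
        (div_ne_zero (gl2_det_ne g) h)) * cG.xu L.r (g.val 0 1 / g.val 0 0) := by
  conv_lhs => rw [eq_LDU g h]
  rw [map_mul, map_mul, hom_gL, hom_gU]

theorem hom_mem (htor : ∀ c, L.tor c ∈ chevG2.group F) (g : GL₂) : L.hom g ∈ chevG2.group F :=
  mul_mem (htor _) (L.hphi.mem_group _)

end LeviData

/-- `c ↦ h_b(c)`. -/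
noncomputable def torB : Fˣ →* GG where
  toFun c := cG.hu 6 (c : F)
  map_one' := by rw [Units.val_one, Cert.hu_one]
  map_mul' a b := by rw [Units.val_mul, Cert.hu_mul cG (lt_of 6) a.ne_zero b.ne_zero]

/-- `c ↦ h_a(c) h_b(c)`. -/
noncomputable def torAB : Fˣ →* GG where
  toFun c := cG.hu 7 (c : F) * cG.hu 6 (c : F)
  map_one' := by rw [Units.val_one, Cert.hu_one, Cert.hu_one, one_mul]
  map_mul' a b := by
    rw [Units.val_mul, ← Cert.hu_mul cG (lt_of 7) a.ne_zero b.ne_zero,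
      ← Cert.hu_mul cG (lt_of 6) a.ne_zero b.ne_zero, mul_assoc, ← mul_assoc (cG.hu 7 (b : F)),
      Cert.hu_comm cG (lt_of 7) (lt_of 6) b.ne_zero a.ne_zero]
    group

/-- The root homomorphism of the long fundamental root. -/
noncomputable def phiB : SL₂ →* GG := (exists_rootHom (F := F) cG (lt_of 6)).choose

theorem hB : RootHom cG 6 (phiB (F := F)) := (exists_rootHom (F := F) cG (lt_of 6)).choose_spec

theorem conj_hu7_hu6 {s : ℕ} (hs : s < chevG2.nroots) (c : Fˣ) (t : F) :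
    (cG.hu 7 (c : F) * cG.hu 6 (c : F)) * cG.xu s t * (cG.hu 7 (c : F) * cG.hu 6 (c : F))⁻¹ =
      cG.xu s ((c : F) ^ (pairInt chevG2 7 s + pairInt chevG2 6 s) * t) := by
  rw [show ∀ a b x : GG, a * b * x * (a * b)⁻¹ = a * (b * x * b⁻¹) * a⁻¹ from fun a b x => by group,
    hu_conj cG (lt_of 6) hs c.ne_zero, hu_conj cG (lt_of 7) hs c.ne_zero, ← mul_assoc, zpow_add₀ c.ne_zero]

/-- The Levi subgroup of the short root `a`. -/
noncomputable def LA : LeviData F where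
  r := 7
  phi := phiS
  tor := torB
  hphi := hS
  conjU c t := by
    show cG.hu 6 (c : F) * _ * (cG.hu 6 (c : F))⁻¹ = _
    rw [hu_conj cG (lt_of 6) (lt_of 7) c.ne_zero, show pairInt chevG2 6 7 = -1 by decide +kernel, zpow_neg_one]
  conjL c t := by
    show cG.hu 6 (c : F) * _ * (cG.hu 6 (c : F))⁻¹ = _
    rw [neg7, hu_conj cG (lt_of 6) (lt_of 4) c.ne_zero, show pairInt chevG2 6 4 = 1 by decide +kernel, zpow_one]

/-- The Levi subgroup of the long root `b`. -/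
noncomputable def LB : LeviData F where
  r := 6
  phi := phiB
  tor := torAB
  hphi := hB
  conjU c t := by
    show cG.hu 7 (c : F) * cG.hu 6 (c : F) * _ * (cG.hu 7 (c : F) * cG.hu 6 (c : F))⁻¹ = _
    rw [conj_hu7_hu6 (lt_of 6), show pairInt chevG2 7 6 + pairInt chevG2 6 6 = -1 by decide +kernel, zpow_neg_one]
  conjL c t := by
    show cG.hu 7 (c : F) * cG.hu 6 (c : F) * _ * (cG.hu 7 (c : F) * cG.hu 6 (c : F))⁻¹ = _
    rw [show chevG2.neg 6 = 5 by decide +kernel, conj_hu7_hu6 (lt_of 5),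
      show pairInt chevG2 7 5 + pairInt chevG2 6 5 = 1 by decide +kernel, zpow_one]

/-- The map of `GL₂` onto the Levi subgroup of `a`. -/
noncomputable abbrev Psi : GL₂ →* GG := (LA (F := F)).hom

/-- The map of `GL₂` onto the Levi subgroup of `b`. -/
noncomputable abbrev Pb : GL₂ →* GG := (LB (F := F)).hom

theorem Psi_mem (g : GL₂) : Psi g ∈ chevG2.group F :=
  LA.hom_mem (fun _ => Cert.wu_mem_group cG _) g

theorem Pb_mem (g : GL₂) : Pb g ∈ chevG2.group F :=
  LB.hom_mem (fun _ => mul_mem (Cert.wu_mem_group cG _) (Cert.wu_mem_group cG _)) g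

/-- The torus element with coordinates `x`, `y`. -/
noncomputable def tor2 (x y : F) : GG := cG.hu 7 x * cG.hu 6 y

theorem Psi_gD (a b : F) (ha : a ≠ 0) (hb : b ≠ 0) : Psi (gD a b ha hb) = tor2 a (a * b) := by
  rw [Psi, LeviData.hom_gD]
  exact Cert.hu_comm cG (lt_of 6) (lt_of 7) (mul_ne_zero ha hb) ha

theorem Pb_gD (a b : F) (ha : a ≠ 0) (hb : b ≠ 0) : Pb (gD a b ha hb) = tor2 (a * b) (a * a * b) := by
  rw [Pb, LeviData.hom_gD]
  show cG.hu 7 (a * b) * cG.hu 6 (a * b) * cG.hu 6 a = _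
  rw [tor2, mul_assoc, Cert.hu_mul cG (lt_of 6) (mul_ne_zero ha hb) ha]
  ring_nf

theorem tor2_mem {x y : F} (hx : x ≠ 0) (hy : y ≠ 0) : tor2 x y ∈ chevG2.diagonalSubgroup F :=
  mul_mem (Cert.hu_simple_mem_diagonal cG (lt_of 7) hx) (Cert.hu_simple_mem_diagonal cG (lt_of 6) hy)

theorem exists_tor2 {h : GG} (hh : h ∈ chevG2.diagonalSubgroup F) :
    ∃ x y : F, x ≠ 0 ∧ y ≠ 0 ∧ h = tor2 x y := by
  obtain ⟨c, hc, e⟩ := (Cert.mem_diagonal_iff cG).mp hh
  refine ⟨c 0, c 1, hc 0 (by decide +kernel), hc 1 (by decide +kernel), e.trans ?_⟩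
  have hl : List.range chevG2.rank = [0, 1] := by decide +kernel
  rw [Cert.torusElt, hl]
  simp only [List.flatMap_cons, List.flatMap_nil, List.append_nil, Cert.wu_append]
  rw [simple0, simple1]
  rfl

theorem tor2_conj {x y : F} (hx : x ≠ 0) (hy : y ≠ 0) {s : ℕ} (hs : s < chevG2.nroots) (t : F) :
    tor2 x y * cG.xu s t * (tor2 x y)⁻¹ = cG.xu s (x ^ pairInt chevG2 7 s * y ^ pairInt chevG2 6 s * t) := by
  rw [tor2, show ∀ a b z : GG, a * b * z * (a * b)⁻¹ = a * (b * z * b⁻¹) * a⁻¹ from fun a b z => by group,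
    hu_conj cG (lt_of 6) hs hy, hu_conj cG (lt_of 7) hs hx, ← mul_assoc]

/-! ### The element inverting the torus -/

/-- `n` maps root subgroups by `σ`. -/
def MapsRoot (n : GG) (σ : ℕ → ℕ) : Prop :=
  ∀ r < 12, σ r < 12 ∧ ∃ c : F, c ≠ 0 ∧ ∀ t, n * cG.xu r t * n⁻¹ = cG.xu (σ r) (c * t)

theorem MapsRoot.comp {n m : GG} {σ τ : ℕ → ℕ} (hn : MapsRoot n σ) (hm : MapsRoot m τ) :
    MapsRoot (n * m) (σ ∘ τ) := by
  intro r hr
  obtain ⟨h1, c, hc, e⟩ := hm r hr
  obtain ⟨h2, d, hd, e'⟩ := hn _ h1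
  refine ⟨h2, d * c, mul_ne_zero hd hc, fun t => ?_⟩
  rw [show n * m * cG.xu r t * (n * m)⁻¹ = n * (m * cG.xu r t * m⁻¹) * n⁻¹ by group, e, e', ← mul_assoc]
  rfl

theorem mapsRoot_nu {i : ℕ} (hi : i < 2) :
    MapsRoot (cG.nu (chevG2.simple i) (1 : F)) (chevG2.reflectRoot i) := by
  intro r hr
  exact ⟨cG.{u}.refl_lt i hi r hr, Cert.conj_xu_simple cG (F := F) hi hr⟩

theorem mapsRoot_nu_inv {i : ℕ} (hi : i < 2) :
    MapsRoot (cG.nu (chevG2.simple i) (1 : F))⁻¹ (chevG2.reflectRoot i) := by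
  intro r hr
  refine ⟨cG.{u}.refl_lt i hi r hr, ?_⟩
  obtain ⟨c, hc, e⟩ := Cert.conj_inv_xu_simple cG (F := F) hi hr
  exact ⟨c, hc, fun t => by rw [inv_inv]; exact e t⟩

theorem mapsRoot_hu {i : ℕ} (hi : i < 12) {c : F} (hc : c ≠ 0) : MapsRoot (cG.hu i c) id := by
  intro r hr
  exact ⟨hr, c ^ pairInt chevG2 i r, zpow_ne_zero _ hc, fun t => hu_conj cG hi hr hc t⟩

/-- The monomial element of the highest root. -/
theorem mapsRoot_W11 :
    MapsRoot (phiL (F := F) sl2W) (chevG2.reflectRoot 1 ∘ chevG2.reflectRoot 0 ∘ chevG2.reflectRoot 1 ∘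
      chevG2.reflectRoot 0 ∘ chevG2.reflectRoot 1) := by
  have eta_ne : ∀ i < 2, ∀ r < 12, (((cG.{u}.eta i r) : ℤ) : F) ≠ 0 := by
    intro i hi r hr
    rcases cG.{u}.eta_sign i hi r hr with h | h <;> simp [h]
  have k1 : ∀ t : F, cG.nu 11 ((((cG.{u}.eta 1 10) : ℤ) : F) * t) =
      cG.nu 6 1 * cG.nu 10 t * (cG.nu 6 1)⁻¹ := fun t => by
    have := Cert.nu_simple_conj_nu cG (i := 1) (r := 10) (by decide +kernel) (lt_of 10) t
    rw [simple1, show chevG2.reflectRoot 1 10 = 11 by decide +kernel] at this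
    exact this.symm
  have k2 : ∀ t : F, cG.nu 10 ((((cG.{u}.eta 0 6) : ℤ) : F) * t) =
      cG.nu 7 1 * cG.nu 6 t * (cG.nu 7 1)⁻¹ := fun t => by
    have := Cert.nu_simple_conj_nu cG (i := 0) (r := 6) (by decide +kernel) (lt_of 6) t
    rw [simple0, show chevG2.reflectRoot 0 6 = 10 by decide +kernel] at this
    exact this.symm
  set e1 := (((cG.{u}.eta 1 10) : ℤ) : F)
  set e0 := (((cG.{u}.eta 0 6) : ℤ) : F)
  have h1 : e1 ≠ 0 := eta_ne 1 (by norm_num) 10 (by norm_num)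
  have h0 : e0 ≠ 0 := eta_ne 0 (by norm_num) 6 (by norm_num)
  have e : phiL (F := F) sl2W = cG.nu 6 1 * (cG.nu 7 1 * (cG.hu 6 (e0⁻¹ * e1⁻¹) * cG.nu 6 1) * (cG.nu 7 1)⁻¹) *
      (cG.nu 6 1)⁻¹ := by
    have hs : cG.nu 6 (e0⁻¹ * e1⁻¹) = cG.hu 6 (e0⁻¹ * e1⁻¹) * cG.nu 6 1 := by
      have := Cert.nu_simple_eq cG (i := 1) (by decide +kernel) (e0⁻¹ * e1⁻¹)
      rwa [simple1] at this
    rw [hL.map_W, ← hs, ← k2, mul_inv_cancel_left₀ h0, ← k1, mul_inv_cancel₀ h1]
  rw [e]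
  have hh := mapsRoot_hu (F := F) (i := 6) (by norm_num) (mul_ne_zero (inv_ne_zero h0) (inv_ne_zero h1))
  have a0 := mapsRoot_nu (F := F) (i := 0) (by norm_num)
  have a1 := mapsRoot_nu (F := F) (i := 1) (by norm_num)
  have b0 := mapsRoot_nu_inv (F := F) (i := 0) (by norm_num)
  have b1 := mapsRoot_nu_inv (F := F) (i := 1) (by norm_num)
  rw [simple0] at a0 b0
  rw [simple1] at a1 b1
  have := ((((a1.comp a0).comp hh).comp a1).comp b0).comp b1
  simpa [mul_assoc, Function.comp_assoc] using this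

/-- The element inverting the torus. -/
noncomputable def nInv (F : Type u) [Field F] : GL chevG2.Idx F := phiS sl2W * phiL sl2W

theorem nInv_mem : nInv F ∈ chevG2.group F := mul_mem (hS.mem_group _) (hL.mem_group _)

theorem nInv_maps : MapsRoot (nInv F) chevG2.neg := by
  have h : MapsRoot (phiS (F := F) sl2W) (chevG2.reflectRoot 0) := by
    rw [hS.map_W, ← simple0]; exact mapsRoot_nu (by norm_num)
  intro r hr
  have key : ∀ r < 12, chevG2.reflectRoot 0 (chevG2.reflectRoot 1 (chevG2.reflectRoot 0 (chevG2.reflectRoot 1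
      (chevG2.reflectRoot 0 (chevG2.reflectRoot 1 r))))) = chevG2.neg r := by decide +kernel
  rw [← key r hr]
  exact h.comp mapsRoot_W11 r hr

theorem W11_hu6 (c : Fˣ) :
    phiL sl2W * cG.hu 6 (c : F) * (phiL (F := F) sl2W)⁻¹ = (cG.hu 7 (c : F) * cG.hu 6 (c : F))⁻¹ := by
  have hp : pairInt chevG2 6 11 = 1 := by decide +kernel
  have hp' : pairInt chevG2 6 0 = -1 := by decide +kernel
  have k : cG.hu 6 (c : F) * phiL sl2W * (cG.hu 6 (c : F))⁻¹ =
      phiL (sl2D (c : F) c.ne_zero) * phiL sl2W := by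
    rw [← map_mul]
    have e : sl2D (c : F) c.ne_zero * sl2W = sl2U (c : F) * sl2L (-(c : F)⁻¹) * sl2U (c : F) := by
      apply Subtype.ext
      simp only [Matrix.SpecialLinearGroup.coe_mul, coe_sl2D]
      ext i j
      fin_cases i <;> fin_cases j <;>
        simp [sl2U, sl2L, sl2W, Matrix.mul_apply, Fin.sum_univ_two]
    rw [e, sl2W_eq]
    simp only [map_mul, hL.U, hL.L, neg11]
    have h1 := hu_conj cG (lt_of 6) (lt_of 11) c.ne_zero (1 : F)
    have h2 := hu_conj cG (lt_of 6) (lt_of 0) c.ne_zero (-1 : F)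
    rw [hp, zpow_one, mul_one] at h1
    rw [hp', zpow_neg_one, mul_neg_one] at h2
    rw [← h1, ← h2]; group
  rw [hL.map_D, hu11_eq c.ne_zero, sq, ← Cert.hu_mul cG (lt_of 6) c.ne_zero c.ne_zero] at k
  have k' : phiL sl2W * (cG.hu 6 (c : F))⁻¹ * (phiL (F := F) sl2W)⁻¹ = cG.hu 7 (c : F) * cG.hu 6 (c : F) := by
    have hc : cG.hu 6 (c : F) * cG.hu 7 (c : F) = cG.hu 7 (c : F) * cG.hu 6 (c : F) :=
      Cert.hu_comm cG (lt_of 6) (lt_of 7) c.ne_zero c.ne_zero
    rw [← mul_assoc, ← hc] at k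
    have k2 := congrArg (fun z => (cG.hu 6 (c : F))⁻¹ * z * (phiL (F := F) sl2W)⁻¹) k
    simp only [mul_assoc, inv_mul_cancel_left, mul_inv_cancel, mul_one] at k2
    rw [mul_assoc]
    exact k2
  rw [← k']; group

theorem detU_inv_ne (A : GL₂) : (detU A : F)⁻¹ ≠ 0 := inv_ne_zero (Units.ne_zero _)

/-- The torus inverting element on the Levi subgroup of `a`. -/
theorem nInv_Psi (A : GL₂) :
    nInv F * Psi A * (nInv F)⁻¹ =
      Psi (gW * (A * gD (detU A : F)⁻¹ (detU A : F)⁻¹ (detU_inv_ne A) (detU_inv_ne A)) * gW⁻¹) := by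
  have hWdet : detU (gW : GL₂) = 1 := Units.ext (by simp [coe_detU])
  have hWsl : slPart (gW : GL₂) = sl2W := by
    apply Subtype.ext; ext i j; fin_cases i <;> fin_cases j <;> simp [slPart, hWdet, sl2W]
  have hW : Psi (gW : GL₂) = phiS sl2W := by
    rw [Psi, LeviData.hom_apply, hWdet, map_one, one_mul, hWsl]; rfl
  set z := gD (detU A : F)⁻¹ (detU A : F)⁻¹ (detU_inv_ne A) (detU_inv_ne A)
  rw [map_mul, map_mul (Psi (F := F)), map_inv, hW, nInv]
  have key : phiL sl2W * Psi A * (phiL (F := F) sl2W)⁻¹ = Psi (A * z) := by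
    have hz : z * A = A * z := by
      apply gl2_ext <;> simp [z, Matrix.mul_apply, Fin.sum_univ_two] <;> ring
    rw [← hz, map_mul, Psi_gD]
    rw [Psi, LeviData.hom_apply]
    show phiL sl2W * (cG.hu 6 (detU A : F) * phiS (slPart A)) * (phiL (F := F) sl2W)⁻¹ =
      tor2 _ _ * (cG.hu 6 (detU A : F) * phiS (slPart A))
    rw [mul_assoc, mul_assoc (cG.hu 6 _), (commute_SL (slPart A) sl2W).inv_right.eq, ← mul_assoc,
      ← mul_assoc, W11_hu6]
    rw [← mul_assoc, tor2]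
    congr 1
    have hd : (detU A : F) ≠ 0 := Units.ne_zero _
    rw [mul_assoc (cG.hu 7 _), Cert.hu_mul cG (lt_of 6) (mul_ne_zero (inv_ne_zero hd) (inv_ne_zero hd)) hd,
      mul_inv_rev, show ((detU A : F)⁻¹ * (detU A : F)⁻¹ * (detU A : F)) = (detU A : F)⁻¹ by field_simp,
      Cert.hu_comm cG (lt_of 7) (lt_of 6) (inv_ne_zero hd) (inv_ne_zero hd)]
    have i6 : (cG.hu 6 (detU A : F))⁻¹ = cG.hu 6 (detU A : F)⁻¹ := inv_eq_of_mul_eq_one_right (by
      rw [Cert.hu_mul cG (lt_of 6) hd (inv_ne_zero hd), mul_inv_cancel₀ hd, Cert.hu_one])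
    have i7 : (cG.hu 7 (detU A : F))⁻¹ = cG.hu 7 (detU A : F)⁻¹ := inv_eq_of_mul_eq_one_right (by
      rw [Cert.hu_mul cG (lt_of 7) hd (inv_ne_zero hd), mul_inv_cancel₀ hd, Cert.hu_one])
    rw [i6, i7]
  rw [← key]; group

end Cfsg.Agent.Chev.G2Cov
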